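import Cfsg.Agent.TwistedLie.F4Weyl
import Cfsg.Agent.TwistedLie.F4Part

/-!
Bruhat cells of the conjugates of an element of `²F₄(q)`, and factorisations `w n_L = a τ b` with
`a` negative and `b` positive.
-/

set_option autoImplicit false
set_option linter.unusedSectionVars false
set_option linter.unusedFintypeInType false

namespace CfsgLib.F4Cover

open Cfsg.Lie CfsgLib.Chevalley CfsgLib.TwistedLie CfsgLib.TwistedLie.F4

local notation "S" => sysF4

/-- A twisted fundamental root keeps its sign under a word. -/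
abbrev Pos (i : Fin 2) (L : List (Fin 2)) : Prop :=
  ∀ a : Fin chevF4.rank, (a : ℕ) ∈ blkN i → 24 ≤ wlW chevF4 blkN L (chevF4.simple a)

/-- A reduced word. -/
def RedW : List (Fin 2) → Prop
  | [] => True
  | i :: L => Pos i L.reverse ∧ RedW L

/-- The decision procedure for reduced words. -/
def redWDec : (L : List (Fin 2)) → Decidable (RedW L)
  | [] => .isTrue trivial
  | i :: L => @instDecidableAnd (Pos i L.reverse) (RedW L) inferInstance (redWDec L)

instance (L : List (Fin 2)) : Decidable (RedW L) := redWDec L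

/-- A word along which the Levi coordinate can be moved. -/
abbrev Good (L : List (Fin 2)) : Prop :=
  RedW L ∧ 0 ∈ L ∧ 1 ∈ L ∧
    ((Pos 1 L.reverse ∧ Pos 1 (1 :: L.reverse)) ∨ (Pos 1 L ∧ Pos 1 (1 :: L)))

/-- The word of the longest element used below. -/
abbrev w8 : List (Fin 2) := [1, 0, 1, 0, 1, 0, 1, 0]

/-- Representatives of the twisted Weyl group. -/
abbrev words : List (List (Fin 2)) :=
  [[], [0], [1], [0, 1], [1, 0], [0, 1, 0], [1, 0, 1], [0, 1, 0, 1], [1, 0, 1, 0], [0, 1, 0, 1, 0],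
    [1, 0, 1, 0, 1], [0, 1, 0, 1, 0, 1], [1, 0, 1, 0, 1, 0], [0, 1, 0, 1, 0, 1, 0],
    [1, 0, 1, 0, 1, 0, 1], w8]

/-- A representative that is good, or the longest one. -/
abbrev Fine (L : List (Fin 2)) : Prop := (Good L ∨ L = w8) ∧ L ∈ words

theorem words_split : ∀ L ∈ words, L = [] ∨ Fine L ∨ L = [0] ∨ L = [1] ∨ L = [1, 0, 1] ∨
    L = [1, 0, 1, 0, 1] ∨ L = [1, 0, 1, 0, 1, 0, 1] ∨ L = [0, 1, 0, 1, 0, 1, 0] := by
  decide +kernel

theorem dih_word : ∀ x : DihedralGroup 8, ∃ w ∈ words, ∀ j : Fin chevF4.rank,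
    (dihPerm x ⟨chevF4.simple j % 48, Nat.mod_lt _ (by decide)⟩ : ℕ) =
      wlW chevF4 blkN w (chevF4.simple j) := by decide +kernel

variable {K : Type*} [Field K] [Fintype K] {m : ℕ} (hK : Fintype.card K = 2 ^ (2 * m + 1))
include hK

local notation "E" => tw hK

/-- The positive part. -/
noncomputable def UU : Subgroup (GL chevF4.Idx K) := chevF4.posUnipotent K ⊓ Tw.G (tw hK)

/-- The element of a word. -/
noncomputable def nn (L : List (Fin 2)) : GL chevF4.Idx K := (Tw.nW (tw hK) L : GL chevF4.Idx K)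

theorem nn_cons (i : Fin 2) (L : List (Fin 2)) : nn hK (i :: L) = nn hK [i] * nn hK L := by
  rw [nn, nn, nn, Tw.nW_cons, Tw.nW_single, Subgroup.coe_mul]

theorem nn_append (A B : List (Fin 2)) : nn hK (A ++ B) = nn hK A * nn hK B := by
  rw [nn, nn, nn, Tw.nW_append, Subgroup.coe_mul]

theorem nn_mem (L : List (Fin 2)) : nn hK L ∈ Tw.G E := Tw.nW_mem E L

theorem nn_nil : nn hK [] = 1 := by rw [nn, Tw.nW_nil, OneMemClass.coe_one]

theorem nn_single (i : Fin 2) :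
    nn hK [i] = (Sys.wN S K ((tw hK).blk i) : GL chevF4.Idx K) := by rw [nn, Tw.nW_single]

theorem UU_le : UU hK ≤ Tw.G E := inf_le_right

theorem T_le' : (tw hK).T ≤ Tw.G E := (tw hK).T_mem

theorem T_conj_nn (L : List (Fin 2)) {t : GL chevF4.Idx K} (ht : t ∈ (tw hK).T) :
    nn hK L * t * (nn hK L)⁻¹ ∈ (tw hK).T ∧ (nn hK L)⁻¹ * t * nn hK L ∈ (tw hK).T :=
  Tw.T_word_conj E L ht

theorem exists_cv {t : GL chevF4.Idx K} (ht : t ∈ (tw hK).T) :
    ∃ a b, t = tor chevF4 K (cv m a b) := (mem_TT hK).mp ht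

theorem cv_mem_T (a b : Kˣ) : tor chevF4 K (cv m a b) ∈ (tw hK).T := (mem_TT hK).mpr ⟨a, b, rfl⟩

theorem T_comm {s t : GL chevF4.Idx K} (hs : s ∈ (tw hK).T) (ht : t ∈ (tw hK).T) : s * t = t * s := by
  obtain ⟨a, b, rfl⟩ := exists_cv hK hs
  obtain ⟨c, d, rfl⟩ := exists_cv hK ht
  rw [← map_mul, ← map_mul, mul_comm]

theorem T_conj_U {t u : GL chevF4.Idx K} (ht : t ∈ (tw hK).T) (hu : u ∈ UU hK) :
    t * u * t⁻¹ ∈ UU hK :=
  (Subgroup.mem_normalizer_iff.mp (Tw.T_normalizes E ht) u).mp hu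

theorem T_conj_X {i : Fin 2} {t x : GL chevF4.Idx K} (ht : t ∈ (tw hK).T) (hx : x ∈ (tw hK).X i) :
    t * x * t⁻¹ ∈ (tw hK).X i := by
  refine (tw hK).X_full i _ ?_ ?_
  · obtain ⟨a, b, rfl⟩ := exists_cv hK ht
    exact Sys.tor_conj_uSub S K _ ((tw hK).X_le i hx)
  · exact Tw.σ_mem E (mul_mem (mul_mem (T_le' hK ht) ((tw hK).X_mem i hx))
      (inv_mem (T_le' hK ht)))

theorem conj_pos {i : Fin 2} {L : List (Fin 2)} (h : Pos i L) {x : GL chevF4.Idx K}
    (hx : x ∈ (tw hK).X i) : nn hK L * x * (nn hK L)⁻¹ ∈ UU hK := by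
  refine Tw.conj_X_of_pos E (fun a ha => ?_) hx
  show chevF4.nroots / 2 ≤ ((tw hK).wW L (Sys.simpleF S a) : ℕ)
  rw [Tw.wW_val E (hbl hK)]
  exact h a (hbl hK i ▸ List.mem_map.mpr ⟨a, ha, rfl⟩)

theorem nn_eq_mul_T {A B : List (Fin 2)} (h : (tw hK).wW A = (tw hK).wW B) :
    ∃ t ∈ (tw hK).T, nn hK A = nn hK B * t := by
  refine ⟨(nn hK B)⁻¹ * nn hK A, ?_, by rw [mul_inv_cancel_left]⟩
  have h1 : nn hK (B.reverse ++ B) ∈ (tw hK).T :=
    Tw.nW_mem_T E (by rw [Tw.wW_append, Tw.wW_reverse, inv_mul_cancel])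
  have h2 : nn hK (B.reverse ++ A) ∈ (tw hK).T :=
    Tw.nW_mem_T E (by rw [Tw.wW_append, Tw.wW_reverse, h, inv_mul_cancel])
  have := mul_mem (inv_mem h1) h2
  simpa [nn_append hK, mul_assoc] using this

theorem nn_rev (L : List (Fin 2)) : ∃ t ∈ (tw hK).T, (nn hK L)⁻¹ = nn hK L.reverse * t := by
  have h1 : nn hK (L ++ L.reverse) ∈ (tw hK).T :=
    Tw.nW_mem_T E (by rw [Tw.wW_append, Tw.wW_reverse, mul_inv_cancel])
  refine ⟨(nn hK L * nn hK L.reverse)⁻¹, inv_mem (nn_append hK _ _ ▸ h1), ?_⟩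
  rw [mul_inv_rev, mul_inv_cancel_left]

theorem conj_pos' {i : Fin 2} {L : List (Fin 2)} (h : Pos i L.reverse) {x : GL chevF4.Idx K}
    (hx : x ∈ (tw hK).X i) : (nn hK L)⁻¹ * x * nn hK L ∈ UU hK := by
  obtain ⟨t, ht, e⟩ := nn_rev hK L
  have e2 : nn hK L = t⁻¹ * (nn hK L.reverse)⁻¹ := by rw [← mul_inv_rev, ← e, inv_inv]
  have h1 := conj_pos hK h (T_conj_X hK ht hx)
  rw [e, e2]
  simpa [mul_assoc] using h1

/-- `g` lies in the double coset of a word. -/
def Cell (L : List (Fin 2)) (g : GL chevF4.Idx K) : Prop :=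
  ∃ b ∈ (tw hK).B1, ∃ b' ∈ (tw hK).B1, g = b * nn hK L * b'

theorem Cell.congr {A B : List (Fin 2)} (h : (tw hK).wW A = (tw hK).wW B) {g : GL chevF4.Idx K}
    (hg : Cell hK A g) : Cell hK B g := by
  obtain ⟨b, hb, b', hb', rfl⟩ := hg
  obtain ⟨t, ht, e⟩ := nn_eq_mul_T hK h
  exact ⟨b, hb, t * b', mul_mem (Tw.T_le_B1 E ht) hb', by rw [e]; simp only [mul_assoc]⟩

theorem Cell.inv {L : List (Fin 2)} {g : GL chevF4.Idx K} (hg : Cell hK L g) :
    Cell hK L.reverse g⁻¹ := by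
  obtain ⟨b, hb, b', hb', rfl⟩ := hg
  obtain ⟨t, ht, e⟩ := nn_rev hK L
  refine ⟨b'⁻¹, inv_mem hb', t * b⁻¹, mul_mem (Tw.T_le_B1 E ht) (inv_mem hb), ?_⟩
  rw [mul_inv_rev, mul_inv_rev, e]
  simp only [mul_assoc]

theorem Cell.n_mul {L : List (Fin 2)} {g : GL chevF4.Idx K} (i : Fin 2) (hg : Cell hK L g) :
    Cell hK (i :: L) (nn hK [i] * g) ∨ Cell hK L (nn hK [i] * g) := by
  obtain ⟨b, hb, b', hb', rfl⟩ := hg
  obtain ⟨c, hc, c', hc', h | h⟩ := Tw.n_B_n E i L hb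
  · left
    refine ⟨c, hc, c' * b', mul_mem hc' hb', ?_⟩
    rw [nn_cons hK i L, nn_single]
    calc _ = ((Sys.wN S K ((tw hK).blk i) : GL chevF4.Idx K) * b * nn hK L) * b' := by
          simp only [mul_assoc]
      _ = _ := by rw [nn, h]; simp only [mul_assoc]
  · right
    refine ⟨c, hc, c' * b', mul_mem hc' hb', ?_⟩
    rw [nn_single]
    calc _ = ((Sys.wN S K ((tw hK).blk i) : GL chevF4.Idx K) * b * nn hK L) * b' := by
          simp only [mul_assoc]
      _ = _ := by rw [nn, h]; simp only [mul_assoc]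

/-- Left multiplication that lengthens. -/
theorem Cell.n_mul_pos {L : List (Fin 2)} {g : GL chevF4.Idx K} {i : Fin 2}
    (hL : Pos i L.reverse) (hg : Cell hK L g) : Cell hK (i :: L) (nn hK [i] * g) := by
  obtain ⟨b, hb, b', hb', rfl⟩ := hg
  obtain ⟨u, hu, t, ht, rfl⟩ := (Tw.mem_B1 E).mp hb
  obtain ⟨a, ha, x, hx, rfl, han⟩ := Tw.U_split E i hu
  have hB : (nn hK L)⁻¹ * (x * t) * nn hK L ∈ (tw hK).B1 := by
    have h1 := Tw.U_le_B1 E (conj_pos' hK hL hx)
    have h2 := Tw.T_le_B1 E (T_conj_nn hK L ht).2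
    have := mul_mem h1 h2
    simpa [mul_assoc] using this
  refine ⟨_, Tw.U_le_B1 E han, (nn hK L)⁻¹ * (x * t) * nn hK L * b', mul_mem hB hb', ?_⟩
  rw [nn_cons hK i L, nn_single]
  group

/-- Conjugation by a fundamental element that lengthens on the left. -/
theorem Cell.up {L : List (Fin 2)} {g : GL chevF4.Idx K} {i : Fin 2} (hL : Pos i L.reverse)
    (hg : Cell hK L g) :
    Cell hK (i :: L ++ [i]) (nn hK [i] * g * (nn hK [i])⁻¹) ∨
      Cell hK (i :: L) (nn hK [i] * g * (nn hK [i])⁻¹) := by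
  have h1 := ((hg.n_mul_pos hK hL).inv hK).n_mul hK i
  have e : nn hK [i] * (nn hK [i] * g)⁻¹ = (nn hK [i] * g * (nn hK [i])⁻¹)⁻¹ := by group
  rw [e] at h1
  rcases h1 with h | h
  · left
    have := h.inv hK
    rwa [inv_inv, List.reverse_cons, List.reverse_reverse] at this
  · right
    have := h.inv hK
    rwa [inv_inv, List.reverse_reverse] at this

/-- Conjugation that shortens a word beginning and ending alike. -/
theorem Cell.down {L : List (Fin 2)} {g : GL chevF4.Idx K} {i : Fin 2}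
    (hg : Cell hK (i :: L ++ [i]) g) :
    ∃ h ∈ Tw.G E, Cell hK L (h * g * h⁻¹) ∨ Cell hK (i :: L) (h * g * h⁻¹) := by
  obtain ⟨b, hb, b', hb', rfl⟩ := hg
  set n := nn hK [i] with hn
  have hnG : n ∈ Tw.G E := nn_mem hK _
  refine ⟨n * b', mul_mem hnG (Tw.B1_le E hb').2, ?_⟩
  have e0 : n * b' * (b * nn hK (i :: L ++ [i]) * b') * (n * b')⁻¹ =
      (n * (b' * b) * n) * nn hK L := by
    rw [List.cons_append, nn_cons hK i (L ++ [i]), nn_append, ← hn]; group
  rw [e0]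
  have hsq : n * n ∈ (tw hK).B1 := by
    rw [hn, nn_single]; exact Tw.T_le_B1 E ((tw hK).n_sq i)
  obtain ⟨c, hc, c', hc', h | h⟩ := Tw.n_B_n E i [i] (mul_mem hb' hb)
  · left
    rw [← nn_single hK i] at h
    change n * (b' * b) * n = c * (n * n) * c' at h
    refine ⟨c * (n * n) * c', mul_mem (mul_mem hc hsq) hc', 1, one_mem _, ?_⟩
    rw [mul_one, h]
  · rw [← nn_single hK i] at h
    change n * (b' * b) * n = c * n * c' at h
    have hL : Cell hK L (c' * nn hK L) := ⟨c', hc', 1, one_mem _, by rw [mul_one]⟩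
    rcases hL.n_mul hK i with ⟨d, hd, d', hd', e⟩ | ⟨d, hd, d', hd', e⟩
    · right
      refine ⟨c * d, mul_mem hc hd, d', hd', ?_⟩
      rw [h, show c * n * c' * nn hK L = c * (n * (c' * nn hK L)) by group, hn, e]
      group
    · left
      refine ⟨c * d, mul_mem hc hd, d', hd', ?_⟩
      rw [h, show c * n * c' * nn hK L = c * (n * (c' * nn hK L)) by group, hn, e]
      group

/-- A conjugate of every non-trivial element lies in a cell of a fine word. -/
theorem exists_fine {g : GL chevF4.Idx K} (hg : g ∈ Tw.G E) (hne : g ≠ 1) :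
    ∃ h ∈ Tw.G E, ∃ L, Fine L ∧ Cell hK L (h * g * h⁻¹) := by
  let GoodG : GL chevF4.Idx K → Prop := fun x =>
    ∃ h ∈ Tw.G E, ∃ L, Fine L ∧ Cell hK L (h * x * h⁻¹)
  have step : ∀ (x k : GL chevF4.Idx K), k ∈ Tw.G E → GoodG (k * x * k⁻¹) → GoodG x := by
    rintro x k hk ⟨h, hh, L, hL, hc⟩
    refine ⟨h * k, mul_mem hh hk, L, hL, ?_⟩
    have e : h * k * x * (h * k)⁻¹ = h * (k * x * k⁻¹) * h⁻¹ := by group
    rw [e]; exact hc
  have fine : ∀ (x : GL chevF4.Idx K) (L : List (Fin 2)), Fine L → Cell hK L x → GoodG x :=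
    fun x L hL hc => ⟨1, one_mem _, L, hL, by simpa using hc⟩
  have key : ∀ (x : GL chevF4.Idx K) (L : List (Fin 2)) (i : Fin 2), Pos i L.reverse →
      Fine (i :: L ++ [i]) → Fine (i :: L) → Cell hK L x → GoodG x := by
    intro x L i hp h1 h2 hc
    refine step x _ (nn_mem hK [i]) ?_
    rcases hc.up hK hp with h | h
    exacts [fine _ _ h1 h, fine _ _ h2 h]
  have h101 : ∀ x, Cell hK [1, 0, 1] x → GoodG x := fun x hc =>
    key x [1, 0, 1] 0 (by decide +kernel) (by decide +kernel) (by decide +kernel) hc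
  have h1 : ∀ x, Cell hK [1] x → GoodG x := fun x hc =>
    key x [1] 0 (by decide +kernel) (by decide +kernel) (by decide +kernel) hc
  have h0 : ∀ x, Cell hK [0] x → GoodG x := by
    intro x hc
    refine step x _ (nn_mem hK [1]) ?_
    rcases hc.up hK (i := 1) (by decide +kernel) with h | h
    exacts [h101 _ h, fine _ _ (by decide +kernel) h]
  have h10101 : ∀ x, Cell hK [1, 0, 1, 0, 1] x → GoodG x := by
    intro x hc
    obtain ⟨k, hk, h | h⟩ := Cell.down hK (L := [0, 1, 0]) (i := 1) hc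
    exacts [step x k hk (fine _ _ (by decide +kernel) h), step x k hk (fine _ _ (by decide +kernel) h)]
  have h7a : ∀ x, Cell hK [1, 0, 1, 0, 1, 0, 1] x → GoodG x := by
    intro x hc
    obtain ⟨k, hk, h | h⟩ := Cell.down hK (L := [0, 1, 0, 1, 0]) (i := 1) hc
    exacts [step x k hk (fine _ _ (by decide +kernel) h), step x k hk (fine _ _ (by decide +kernel) h)]
  have h7b : ∀ x, Cell hK [0, 1, 0, 1, 0, 1, 0] x → GoodG x := by
    intro x hc
    obtain ⟨k, hk, h | h⟩ := Cell.down hK (L := [1, 0, 1, 0, 1]) (i := 0) hc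
    exacts [step x k hk (h10101 _ h), step x k hk (fine _ _ (by decide +kernel) h)]
  by_contra hno
  have hall : ∀ k ∈ Tw.G E, k * g * k⁻¹ ∈ (tw hK).B1 := by
    intro k hk
    set x := k * g * k⁻¹ with hx
    have hxG : x ∈ Tw.G E := mul_mem (mul_mem hk hg) (inv_mem hk)
    obtain ⟨b, hb, L, b', hb', e⟩ := Tw.cover E hxG
    obtain ⟨d, hd⟩ := wW_range hK L
    obtain ⟨w, hw, hwd⟩ := dih_word d
    have hwW : (tw hK).wW L = (tw hK).wW w := by
      refine wperm_ext S fun j => Fin.ext ?_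
      show ((tw hK).wW L (Sys.simpleF S j) : ℕ) = ((tw hK).wW w (Sys.simpleF S j) : ℕ)
      rw [← hd, Tw.wW_val E (hbl hK)]
      show (dihPerm d (Sys.simpleF S j) : ℕ) = _
      have hj : Sys.simpleF S j = ⟨chevF4.simple j % 48, Nat.mod_lt _ (by decide)⟩ :=
        Fin.ext (Nat.mod_eq_of_lt (Sys.simpleF S j).isLt).symm
      rw [hj, hwd j]
      exact congrArg _ (Nat.mod_eq_of_lt (Sys.simpleF S j).isLt).symm
    have hc : Cell hK w x := Cell.congr hK hwW ⟨b, hb, b', hb', e⟩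
    have bad : ¬ GoodG x := fun h => hno (step g k hk h)
    rcases words_split w hw with rfl | h | rfl | rfl | rfl | rfl | rfl | rfl
    · obtain ⟨c, hc1, c', hc2, e'⟩ := hc
      rw [e', nn_nil, mul_one]
      exact mul_mem hc1 hc2
    · exact absurd (fine x w h hc) bad
    · exact absurd (h0 x hc) bad
    · exact absurd (h1 x hc) bad
    · exact absurd (h101 x hc) bad
    · exact absurd (h10101 x hc) bad
    · exact absurd (h7a x hc) bad
    · exact absurd (h7b x hc) bad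
  refine hne ?_
  have hmem : (⟨g, hg⟩ : ↥(Tw.G E)) ∈
      ((chevF4.borelSubgroup K ⊓ Tw.G E).subgroupOf (Tw.G E)).normalCore := by
    intro k
    rw [Subgroup.mem_subgroupOf, Tw.borel_inf E]
    exact hall k k.2
  have := charTwo hK
  have hbot : ((chevF4.borelSubgroup K ⊓ Tw.G E).subgroupOf (Tw.G E)).normalCore = ⊥ :=
    core_bot (pow_ne_zero m two_ne_zero)
  rw [hbot, Subgroup.mem_bot] at hmem
  exact congrArg Subtype.val hmem

/-- The negative part. -/
noncomputable def VV : Subgroup (GL chevF4.Idx K) :=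
  (UU hK).comap (MulAut.conj (nn hK w8)).toMonoidHom

theorem mem_VV {a : GL chevF4.Idx K} :
    a ∈ VV hK ↔ nn hK w8 * a * (nn hK w8)⁻¹ ∈ UU hK := by
  simp [VV]

theorem T_conj_V {t a : GL chevF4.Idx K} (ht : t ∈ (tw hK).T) (ha : a ∈ VV hK) :
    t * a * t⁻¹ ∈ VV hK := by
  rw [mem_VV] at ha ⊢
  have := T_conj_U hK (T_conj_nn hK w8 ht).1 ha
  simpa [mul_assoc] using this

theorem flip_V {i : Fin 2} {x : GL chevF4.Idx K} (hx : x ∈ (tw hK).X i) :
    nn hK [i] * x * (nn hK [i])⁻¹ ∈ VV hK := by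
  rw [mem_VV]
  have h : Pos i (w8 ++ [i]) :=
    (by decide +kernel : ∀ j : Fin 2, Pos j (w8 ++ [j])) i
  have h1 := conj_pos hK h hx
  rw [nn_append hK w8 [i]] at h1
  have e : ∀ p q r : GL chevF4.Idx K, p * (q * r * q⁻¹) * p⁻¹ = p * q * r * (p * q)⁻¹ := by
    intros; group
  rw [e]; exact h1

/-- Some element of `U n_L` has the torus part `τ` and first factor negative. -/
def Att (L : List (Fin 2)) (τ : GL chevF4.Idx K) : Prop :=
  ∃ w ∈ UU hK, ∃ a ∈ VV hK, ∃ b ∈ UU hK, w * nn hK L = a * τ * b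

/-- The torus part of a fundamental flip. -/
def Step (i : Fin 2) (τ : GL chevF4.Idx K) : Prop :=
  ∃ y ∈ UU hK, ∃ x ∈ (tw hK).X i, ∃ x' ∈ (tw hK).X i,
    y * nn hK [i] = (nn hK [i] * x * (nn hK [i])⁻¹) * τ * x'

end CfsgLib.F4Cover
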