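import Cfsg.Agent.F4Cover.Levi
import Cfsg.Agent.G2Cover.GLTwo

/-!
Every torus element occurs as torus part along a reduced word in both letters.
-/

set_option autoImplicit false
set_option linter.unusedSectionVars false
set_option linter.unusedFintypeInType false

namespace CfsgLib.F4Cover

open Cfsg.Lie CfsgLib.Chevalley CfsgLib.TwistedLie CfsgLib.TwistedLie.F4
open scoped MatrixGroups

local notation "S" => sysF4

variable {K : Type*} [Field K] [Fintype K] {m : ℕ} (hK : Fintype.card K = 2 ^ (2 * m + 1))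
include hK

local notation "E" => tw hK

/-- A positive element kept by a fundamental reflection lies in the radical of its orbit. -/
theorem kept_out {i : Fin 2} {a : GL chevF4.Idx K} (ha : a ∈ UU hK)
    (hc : nn hK [i] * a * (nn hK [i])⁻¹ ∈ UU hK) :
    a ∈ uSub chevF4 K (outSet chevF4 {k | k ∈ blkN i}) := by
  obtain ⟨ha1, -⟩ := ha
  set n := Tw.nW E [i] with hn
  rw [← Sys.uSub_kept_union_flip S K n] at ha1
  obtain ⟨p, hp, y, hy, rfl⟩ := Sys.uSub_union_mul S K (Sys.closed_keptSet S K n)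
    (Sys.closed_flipSet S K n) (Sys.closed_kept_union_flip S K n) ha1
  have hy1 : y = 1 := by
    have h1 : nn hK [i] * p * (nn hK [i])⁻¹ ∈ chevF4.posUnipotent K := Sys.conj_kept S K n hp
    have h2 : nn hK [i] * y * (nn hK [i])⁻¹ ∈ chevF4.posUnipotent K := by
      have h3 := mul_mem (inv_mem h1) hc.1
      simpa [mul_assoc] using h3
    have h3 : nn hK [i] * y * (nn hK [i])⁻¹ ∈ chevF4.negUnipotent K := by
      have := charTwo hK
      rw [hn, Tw.flip_blk E] at hy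
      rw [nn_single]
      show (Sys.wN S K (blkF i) : GL chevF4.Idx K) * y * (Sys.wN S K (blkF i) : GL chevF4.Idx K)⁻¹ ∈ _
      rw [wN_blk]
      exact flip_neg i hy
    have h4 : nn hK [i] * y * (nn hK [i])⁻¹ ∈
        chevF4.borelSubgroup K ⊓ chevF4.negUnipotent K := ⟨Subgroup.mem_sup_left h2, h3⟩
    rw [Sys.borel_inf_neg S K, Subgroup.mem_bot, conj_eq_one_iff] at h4
    exact h4
  rw [hy1, mul_one]
  refine Sys.uSub_le S K (fun r hr h1 h2 u => Sys.xG_mem_uSub S K ?_ h1 h2 u) hp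
  have hcls : r ∉ clsN i := by
    intro hcls
    obtain ⟨hr', hk⟩ := hr
    have h5 := (Tw.blk_neg' E i h2 h1).mpr hcls
    rw [hn, Tw.perm_nW, Tw.wW_single] at hk
    omega
  intro hin
  refine hcls (cls_conv i r h2 h1 fun k hk => ?_)
  exact ((Sys.mem_inRootSub S suppF4).mp hin).2 k k.isLt hk

theorem X_levi {i : Fin 2} {x : GL chevF4.Idx K} (hx : x ∈ (tw hK).X i) :
    x ∈ chevF4.leviSubgroup K {k | k ∈ blkN i} := by
  refine Sys.uSub_le S K (fun r hr h1 h2 u => ?_) ((tw hK).X_le i hx)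
  refine Sys.levi_xG_mem S K ((Sys.mem_inRootSub S suppF4).mpr ⟨h2, fun k hk hkJ => ?_⟩) u
  exact cls_vec i r hr ⟨k, hk⟩ hkJ

theorem n_levi (i : Fin 2) : nn hK [i] ∈ chevF4.leviSubgroup K {k | k ∈ blkN i} := by
  have h : ∀ L : List ℕ, (∀ a ∈ L, a ∈ blkN i) →
      nL S K L ∈ chevF4.leviSubgroup K {k | k ∈ blkN i} := by
    intro L
    induction L with
    | nil => intro; simp [nL]
    | cons a L ih =>
      intro hL
      rw [nL_cons]
      exact mul_mem (Sys.nG_mem_levi S K suppF4 (J := {k | k ∈ blkN i})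
        (hL a (List.mem_cons_self ..)) (blkN_lt i a (hL a (List.mem_cons_self ..))))
        (ih fun b hb => hL b (List.mem_cons_of_mem _ hb))
  rw [nn_eq, List.flatMap_cons, List.flatMap_nil, List.append_nil]
  exact h _ fun a ha => ha

theorem out_conj {i : Fin 2} {l a : GL chevF4.Idx K}
    (hl : l ∈ chevF4.leviSubgroup K {k | k ∈ blkN i})
    (ha : a ∈ uSub chevF4 K (outSet chevF4 {k | k ∈ blkN i})) :
    l * a * l⁻¹ ∈ uSub chevF4 K (outSet chevF4 {k | k ∈ blkN i}) :=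
  (Subgroup.mem_normalizer_iff.mp (Sys.levi_le_normalizer S K suppF4 _ hl) a).mp ha

theorem Att.nil : Att hK [] 1 :=
  ⟨1, one_mem _, 1, one_mem _, 1, one_mem _, by rw [nn_nil]; group⟩

theorem nsq_mem (i : Fin 2) : nn hK [i] * nn hK [i] ∈ (tw hK).T := by
  rw [nn_single]; exact (tw hK).n_sq i

theorem conj_inv_mem {i : Fin 2} {a : GL chevF4.Idx K}
    (hc : nn hK [i] * a * (nn hK [i])⁻¹ ∈ UU hK) :
    (nn hK [i])⁻¹ * a * nn hK [i] ∈ UU hK := by
  have h := T_conj_U hK (inv_mem (nsq_mem hK i)) hc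
  simpa [mul_assoc] using h

theorem Att.cons {i : Fin 2} {L : List (Fin 2)} {τ₁ τ₂ : GL chevF4.Idx K} (h1 : Step hK i τ₁)
    (hL : Pos i L.reverse) (hτ : τ₁ ∈ (tw hK).T) (h2 : Att hK L τ₂) :
    Att hK (i :: L) (τ₁ * τ₂) := by
  obtain ⟨y, hy, x, hx, x', hx', e1⟩ := h1
  obtain ⟨u2, hu2, a, ha, b, hb, e2⟩ := h2
  obtain ⟨p, hp, x₂, hx₂, rfl, hpn⟩ := Tw.U_split E i hu2
  rw [← nn_single hK i] at hpn
  set n := nn hK [i] with hn
  have hp' : τ₁ * p * τ₁⁻¹ ∈ UU hK ∧ n * (τ₁ * p * τ₁⁻¹) * n⁻¹ ∈ UU hK := by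
    refine ⟨T_conj_U hK hτ hp, ?_⟩
    have h := T_conj_U hK (T_conj_nn hK [i] hτ).1 hpn
    rw [← hn] at h
    simpa [mul_assoc] using h
  set p' := τ₁ * p * τ₁⁻¹ with hp'def
  set q := n⁻¹ * p' * n with hq
  have hqn : n * q * n⁻¹ = p' := by rw [hq]; group
  have hqU : q ∈ UU hK := conj_inv_mem hK hp'.2
  have hxqn : n * (x * q * x⁻¹) * n⁻¹ ∈ UU hK := by
    have h1 := kept_out hK hqU (by rw [← hn, hqn]; exact hp'.1)
    have hnl := n_levi hK i
    rw [← hn] at hnl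
    have hG : n * (x * q * x⁻¹) * n⁻¹ ∈ Tw.G E :=
      mul_mem (mul_mem (nn_mem hK _)
        (mul_mem (mul_mem ((tw hK).X_mem i hx) hqU.2) (inv_mem ((tw hK).X_mem i hx))))
        (inv_mem (nn_mem hK _))
    exact ⟨uSub_le_posUnipotent K _ (out_conj hK hnl (out_conj hK (X_levi hK hx) h1)), hG⟩
  refine ⟨n * (x * q * x⁻¹) * n⁻¹ * y, mul_mem hxqn hy,
    (n * x * n⁻¹) * (τ₁ * a * τ₁⁻¹), mul_mem (flip_V hK hx) (T_conj_V hK hτ ha),
    b * ((nn hK L)⁻¹ * (x₂⁻¹ * x') * nn hK L),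
    mul_mem hb (conj_pos' hK hL (mul_mem (inv_mem hx₂) hx')), ?_⟩
  rw [nn_cons hK i L, ← hn]
  calc n * (x * q * x⁻¹) * n⁻¹ * y * (n * nn hK L)
      = n * (x * q * x⁻¹) * n⁻¹ * (y * n) * nn hK L := by group
    _ = n * (x * q * x⁻¹) * n⁻¹ * (n * x * n⁻¹ * τ₁ * x') * nn hK L := by rw [e1]
    _ = n * x * n⁻¹ * (n * q * n⁻¹) * τ₁ * x' * nn hK L := by group
    _ = n * x * n⁻¹ * (τ₁ * p * τ₁⁻¹) * τ₁ * x' * nn hK L := by rw [hqn]
    _ = n * x * n⁻¹ * τ₁ * (p * x₂ * nn hK L) *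
        ((nn hK L)⁻¹ * (x₂⁻¹ * x') * nn hK L) := by group
    _ = _ := by rw [e2]; group

theorem sl2_flip (s : Kˣ) : (SL2Rel.upper (s : K) * SL2Rel.weyl : SL(2, K)) =
    D4Cover.lower (s : K)⁻¹ * SL2Rel.dia s * SL2Rel.upper (s : K)⁻¹ := by
  have := charTwo hK
  apply Subtype.ext
  simp only [Matrix.SpecialLinearGroup.coe_mul, SL2Rel.upper_val, SL2Rel.weyl_val, SL2Rel.dia_val,
    D4Cover.lower_val]
  ext i j
  fin_cases i <;> fin_cases j <;>
    simp [Matrix.mul_apply, Fin.sum_univ_two, CharTwo.neg_eq, CharTwo.add_self_eq_zero]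

/-- The flip of a positive element of the pair. -/
theorem pair_flip (s : Kˣ) :
    PP m (s : K) * nn hK [1] = NN m (s : K)⁻¹ * HH m s * PP m (s : K)⁻¹ := by
  rw [← phi_upper hK, ← phi_weyl hK, ← phi_lower hK, ← phi_dia hK, ← phi_upper hK, ← map_mul,
    ← map_mul, ← map_mul, sl2_flip hK]

theorem step_one (a : Kˣ) : Step hK 1 (tor chevF4 K (cv m a 1)) := by
  set s : Kˣ := a ^ (2 * 2 ^ m) with hs
  have hsa : tor chevF4 K (cv m a 1) = HH m s := by
    rw [HH, hs, ← pow_mul]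
    congr 2
    exact Units.ext (by simpa using (sq_pow hK (a : K)).symm)
  refine ⟨PP m (s : K), PP_mem_U hK _, PP m (s : K)⁻¹, PP_mem hK _, PP m (s : K)⁻¹, PP_mem hK _, ?_⟩
  rw [n1_PP, hsa, pair_flip]

omit [Fintype K] hK in
theorem cartan_rows : (∀ j, j < 4 → chevF4.cartan j 27 = [-1, 2, -1, 0].getD j 0) ∧
    (∀ j, j < 4 → chevF4.cartan j 25 = [0, -2, 2, -1].getD j 0) := by decide +kernel

omit [Fintype K] hK in
theorem nG_four1 (a b c d : Kˣ) :
    Sys.nG S K (chevF4.simple 1) 1 * tor chevF4 K (four a b c d) *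
        (Sys.nG S K (chevF4.simple 1) 1)⁻¹ =
      tor chevF4 K (four a (a * c * b⁻¹) c d) := by
  rw [nG_tor4 1 (by omega), simple_eq.2.1]
  refine tor_congr fun j hj => ?_
  obtain ⟨h1, -⟩ := cartan_rows
  rw [torusVal_four, h1 0 (by omega), h1 1 (by omega), h1 2 (by omega), h1 3 (by omega)]
  interval_cases j <;>
    simp [four]
  apply Additive.ofMul.injective
  simp only [ofMul_mul, ofMul_inv, ofMul_pow]
  module

omit [Fintype K] hK in
theorem nG_four2 (a b c d : Kˣ) :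
    Sys.nG S K (chevF4.simple 2) 1 * tor chevF4 K (four a b c d) *
        (Sys.nG S K (chevF4.simple 2) 1)⁻¹ =
      tor chevF4 K (four a b (b ^ 2 * d * c⁻¹) d) := by
  rw [nG_tor4 2 (by omega), simple_eq.2.2.1]
  refine tor_congr fun j hj => ?_
  obtain ⟨-, h1⟩ := cartan_rows
  rw [torusVal_four, h1 0 (by omega), h1 1 (by omega), h1 2 (by omega), h1 3 (by omega)]
  interval_cases j <;>
    simp [four]
  apply Additive.ofMul.injective
  simp only [ofMul_mul, ofMul_inv, ofMul_pow]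
  module

theorem n0_inverts (b : Kˣ) :
    nn hK [0] * tor chevF4 K (cv m 1 b) * (nn hK [0])⁻¹ = (tor chevF4 K (cv m 1 b))⁻¹ := by
  have e : nn hK [0] = Sys.nG S K (chevF4.simple 1) 1 * (Sys.nG S K (chevF4.simple 2) 1 *
      (Sys.nG S K (chevF4.simple 1) 1 * Sys.nG S K (chevF4.simple 2) 1)) := by
    rw [nn_eq]; simp [nL, blkN]
  have e2 : ∀ A B C D T : GL chevF4.Idx K, A * (B * (C * D)) * T * (A * (B * (C * D)))⁻¹ =
      A * (B * (C * (D * T * D⁻¹) * C⁻¹) * B⁻¹) * A⁻¹ := by intros; group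
  rw [e, e2, ← map_inv, cv, nG_four2, nG_four1, nG_four2, nG_four1]
  refine tor_congr fun j hj => ?_
  interval_cases j <;> simp [four, pow_two] <;> group

theorem step_zero : ∃ τ₀ ∈ (tw hK).T, ∀ b : Kˣ,
    Step hK 0 (τ₀ * tor chevF4 K (cv m 1 b)) := by
  obtain ⟨x, hx, hne⟩ := (tw hK).X_ne 0
  obtain ⟨x', hx', t, ht, x'', hx'', e⟩ := (tw hK).rank_one 0 x hx hne
  rw [← nn_single hK 0] at e
  set n := nn hK [0] with hn
  refine ⟨t⁻¹, inv_mem ht, fun b => ?_⟩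
  obtain ⟨b₂, hb₂⟩ : ∃ c : Kˣ, c ^ 2 = b⁻¹ := by
    have := charTwo hK
    obtain ⟨r, hr⟩ := CfsgLib.G2Cover.sq_surjective_two ((b⁻¹ : Kˣ) : K)
    have hr0 : r ≠ 0 := fun h => (b⁻¹).ne_zero (by rw [← hr, h, zero_pow two_ne_zero])
    exact ⟨Units.mk0 r hr0, Units.ext (by simpa using hr)⟩
  set h := tor chevF4 K (cv m 1 b₂) with hh
  have hhT : h ∈ (tw hK).T := cv_mem_T hK _ _
  have hb : tor chevF4 K (cv m 1 b) = h⁻¹ * h⁻¹ := by
    rw [hh, ← map_inv, ← map_mul]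
    refine tor_congr fun j hj => ?_
    have hb' : b = b₂⁻¹ * b₂⁻¹ := by rw [← mul_inv_rev, ← pow_two, hb₂, inv_inv]
    interval_cases j <;> simp [cv, four, hb', mul_pow]
  have hinv : n⁻¹ * h * n = h⁻¹ := by
    have h1 := n0_inverts hK b₂
    rw [← hn, ← hh] at h1
    calc n⁻¹ * h * n = n⁻¹ * (n * h * n⁻¹)⁻¹ * n := by rw [h1, inv_inv]
      _ = h⁻¹ := by group
  refine ⟨h⁻¹ * x' * h, ?_, h * x * h⁻¹, T_conj_X hK hhT hx, h * (t * x''⁻¹ * t⁻¹) * h⁻¹,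
    T_conj_X hK hhT (T_conj_X hK ht (inv_mem hx'')), ?_⟩
  · simpa using T_conj_U hK (inv_mem hhT) hx'
  rw [← hn, hb]
  have e0 : x' * n = n * x * n⁻¹ * t⁻¹ * (t * x''⁻¹ * t⁻¹) := by rw [e]; group
  have hn1 : h * n = n * h⁻¹ := by rw [← hinv]; group
  have hn2 : h⁻¹ * n = n * h := by
    calc h⁻¹ * n = n * (n⁻¹ * h * n)⁻¹ := by group
      _ = n * h := by rw [hinv, inv_inv]
  have hn3 : n⁻¹ * h = h⁻¹ * n⁻¹ := by rw [← hinv]; group
  calc h⁻¹ * x' * h * n = h⁻¹ * (x' * n) * h⁻¹ := by rw [mul_assoc _ h n, hn1]; group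
    _ = (h⁻¹ * n) * x * (n⁻¹ * h) * (h⁻¹ * t⁻¹ * h⁻¹) * (h * (t * x''⁻¹ * t⁻¹) * h⁻¹) := by
      rw [e0]; group
    _ = n * (h * x * h⁻¹) * n⁻¹ * (h⁻¹ * t⁻¹ * h⁻¹) * (h * (t * x''⁻¹ * t⁻¹) * h⁻¹) := by
      rw [hn2, hn3]; group
    _ = _ := by rw [← mul_assoc t⁻¹ h⁻¹ h⁻¹, T_comm hK (inv_mem hhT) (inv_mem ht)]

/-- The torus parts along a reduced word fill the torus parts of its letters. -/
theorem att_cover : ∀ L : List (Fin 2), RedW L → ∃ τ₁ ∈ (tw hK).T, ∀ a b : Kˣ,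
    ((1 : Fin 2) ∈ L ∨ a = 1) → ((0 : Fin 2) ∈ L ∨ b = 1) →
      Att hK L (τ₁ * tor chevF4 K (cv m a b)) := by
  intro L
  induction L with
  | nil =>
    intro _
    refine ⟨1, one_mem _, fun a b ha hb => ?_⟩
    obtain rfl : a = 1 := ha.resolve_left (by simp)
    obtain rfl : b = 1 := hb.resolve_left (by simp)
    rw [show cv m (1 : Kˣ) 1 = 1 by simp [cv, four_one], map_one, mul_one]
    exact Att.nil hK
  | cons i L ih =>
    rintro ⟨hi, hL⟩
    obtain ⟨τ₁, hτ₁, h⟩ := ih hL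
    revert hi
    revert i
    rw [Fin.forall_fin_two]
    refine ⟨fun hi => ?_, fun hi => ?_⟩
    · obtain ⟨τ₀, hτ₀, h0⟩ := step_zero hK
      refine ⟨τ₀ * τ₁, mul_mem hτ₀ hτ₁, fun a b ha _ => ?_⟩
      have h1 := h a 1 (ha.imp_left fun h => by simpa using h) (Or.inr rfl)
      have h2 := Att.cons hK (h0 b) hi (mul_mem hτ₀ (cv_mem_T hK _ _)) h1
      have ec : tor chevF4 K (cv m a b) = tor chevF4 K (cv m 1 b) * tor chevF4 K (cv m a 1) := by
        rw [← map_mul, cv_mul, one_mul, mul_one]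
      rw [ec, mul_assoc, ← mul_assoc τ₁, ← T_comm hK (cv_mem_T hK 1 b) hτ₁]
      simpa only [mul_assoc] using h2
    · refine ⟨τ₁, hτ₁, fun a b _ hb => ?_⟩
      have h1 := h 1 b (Or.inr rfl) (hb.imp_left fun h => by simpa using h)
      have h2 := Att.cons hK (step_one hK a) hi (cv_mem_T hK _ _) h1
      have ec : tor chevF4 K (cv m a b) = tor chevF4 K (cv m a 1) * tor chevF4 K (cv m 1 b) := by
        rw [← map_mul, cv_mul, one_mul, mul_one]
      rw [ec, ← mul_assoc, ← T_comm hK (cv_mem_T hK a 1) hτ₁]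
      simpa only [mul_assoc] using h2

theorem att_all {L : List (Fin 2)} (hL : RedW L) (h0 : (0 : Fin 2) ∈ L) (h1 : (1 : Fin 2) ∈ L)
    {τ : GL chevF4.Idx K} (hτ : τ ∈ (tw hK).T) : Att hK L τ := by
  obtain ⟨τ₁, hτ₁, h⟩ := att_cover hK L hL
  obtain ⟨a, b, e⟩ := exists_cv hK (mul_mem (inv_mem hτ₁) hτ)
  have h2 := h a b (Or.inl h1) (Or.inl h0)
  rwa [← e, mul_inv_cancel_left] at h2

end CfsgLib.F4Cover
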