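import Cfsg.Agent.F4Cover.Cells
import Cfsg.Agent.Chevalley.SLTwoHom
import Cfsg.Agent.Chevalley.StepData
import Cfsg.Agent.D4Cover.RankOne

/-!
The Levi subgroup of the pair of orthogonal fundamental roots of `²F₄(q)` as a group of two by two
matrices, and a central element acting freely on the radical.
-/

set_option autoImplicit false
set_option linter.unusedSectionVars false
set_option linter.unusedFintypeInType false

namespace CfsgLib.F4Cover

open Cfsg.Lie CfsgLib.Chevalley CfsgLib.TwistedLie CfsgLib.TwistedLie.F4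
open CfsgLib.D4Cover (Free)
open scoped MatrixGroups

local notation "S" => sysF4

/-- The fundamental roots of the pair. -/
abbrev J03 : Set ℕ := {0, 3}

theorem suppF4 : Sys.SupportEq S := supportEq_of_chk checkedF4 chkSupp_F4

theorem out_of_pos {r : ℕ} (h1 : 24 ≤ r) (h2 : r < 48) (h : r ∉ clsN 1) :
    r ∈ outSet chevF4 J03 := by
  obtain ⟨m, hm, hne⟩ := (by decide +kernel : ∀ r : Fin 48, 24 ≤ (r : ℕ) → (r : ℕ) ∉ clsN 1 →
    ∃ m : Fin 4, (m : ℕ) ∉ blkN 1 ∧ tabF4.coord 4 m r ≠ 0) ⟨r, h2⟩ h1 h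
  refine Sys.mem_outSet_of_vec S suppF4 (m := m) m.isLt ?_ ?_
  · intro hJ
    refine hm ?_
    rcases hJ with hJ | hJ
    · rw [hJ]; decide
    · rw [Set.mem_singleton_iff.mp hJ]; decide
  · refine lt_of_le_of_ne (Sys.vec_pos S r h2 h1 m m.isLt) fun e => hne ?_
    exact e.symm

theorem not_cls_of_out {r : ℕ} (h : r ∈ outSet chevF4 J03) : r ∉ clsN 1 := by
  intro hr
  refine h ((Sys.mem_inRootSub S suppF4).mpr ⟨(cls_pos 1 r hr).2, fun m hm hmJ => ?_⟩)
  refine cls_vec 1 r hr ⟨m, hm⟩ fun hb => hmJ ?_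
  rcases List.mem_cons.mp (show m ∈ [0, 3] from hb) with e | e
  · exact Or.inl e
  · exact Or.inr (List.mem_singleton.mp e)

theorem levi_roots {r : ℕ} (hr : r ∈ [14, 23, 24, 33]) : chevF4.InRootSub J03 r := by
  have hS := suppF4
  have h0 : chevF4.InRootSub J03 33 := simple_eq.1 ▸
    Sys.inRootSub_simple S hS (J := J03) (j := 0) (Or.inl rfl) (by decide)
  have h3 : chevF4.InRootSub J03 24 := simple_eq.2.2.2 ▸
    Sys.inRootSub_simple S hS (J := J03) (j := 3) (Or.inr rfl) (by decide)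
  have h0' := Sys.inRootSub_neg S hS h0
  have h3' := Sys.inRootSub_neg S hS h3
  rw [neg_eq.1] at h0'
  rw [neg_eq.2.2.2.1] at h3'
  simp only [List.mem_cons, List.not_mem_nil, or_false] at hr
  rcases hr with rfl | rfl | rfl | rfl
  exacts [h0', h3', h3, h0]

variable {K : Type*} [Field K]

/-- The positive element of the pair. -/
noncomputable abbrev PP (m : ℕ) (t : K) : GL chevF4.Idx K := pairEl m t

/-- The negative element of the pair. -/
noncomputable def NN (m : ℕ) (t : K) : GL chevF4.Idx K :=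
  Sys.xG S K 14 (t ^ 2 ^ m) * Sys.xG S K 23 t

theorem pair_factors (r s : ℕ) (hr : r ∈ [14, 33]) (hs : s ∈ [23, 24]) (t u : K) :
    Commute (Sys.xG S K r t) (Sys.xG S K s u) :=
  orth_commute S K ((by decide +kernel : ∀ r ∈ [14, 33], ∀ s ∈ [23, 24],
    orthB chevF4 r s = true) r hr s hs) t u

/-- The first component. -/
noncomputable def homA : SL(2, K) →* GL chevF4.Idx K :=
  (Sys.sl2Rel S K (i := 0) (by decide)).lift

/-- The second component. -/
noncomputable def homB : SL(2, K) →* GL chevF4.Idx K :=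
  (Sys.sl2Rel S K (i := 3) (by decide)).lift

theorem hom_commute (g g' : SL(2, K)) : Commute (homA g) (homB g') := by
  let A : Subgroup (GL chevF4.Idx K) :=
    Subgroup.closure (Set.range (Sys.xG S K 33) ∪ Set.range (Sys.xG S K 14))
  have hA : homA g ∈ A := by
    have h : homA g ∈ (Sys.sl2Rel S K (i := 0) (by decide)).lift.range := ⟨g, rfl⟩
    rw [SL2Rel.range_lift] at h
    simpa [A, Sys.sl2Rel, simple_eq.1, neg_eq.1] using h
  let B : Subgroup (GL chevF4.Idx K) :=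
    Subgroup.closure (Set.range (Sys.xG S K 24) ∪ Set.range (Sys.xG S K 23))
  have hB : homB g' ∈ B := by
    have h : homB g' ∈ (Sys.sl2Rel S K (i := 3) (by decide)).lift.range := ⟨g', rfl⟩
    rw [SL2Rel.range_lift] at h
    simpa [B, Sys.sl2Rel, simple_eq.2.2.2, neg_eq.2.2.2.1] using h
  have hle : B ≤ Subgroup.centralizer (A : Set (GL chevF4.Idx K)) := by
    rw [Subgroup.closure_le]
    intro b hb
    rw [SetLike.mem_coe, Subgroup.centralizer_closure, Subgroup.mem_centralizer_iff]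
    rintro a (⟨t, rfl⟩ | ⟨t, rfl⟩) <;> rcases hb with ⟨u, rfl⟩ | ⟨u, rfl⟩ <;>
      exact (pair_factors _ _ (by simp) (by simp) t u).eq
  exact (Subgroup.mem_centralizer_iff.mp (hle hB)) _ hA

variable [Fintype K] {m : ℕ} (hK : Fintype.card K = 2 ^ (2 * m + 1))
include hK

local notation "E" => tw hK

theorem theta_sq (u : Kˣ) : (u ^ 2 ^ m) ^ (2 * 2 ^ m) = u := by
  rw [← pow_mul, mul_comm (2 ^ m) (2 * 2 ^ m)]
  exact Units.ext (by simpa using sq_pow hK (u : K))

/-- The field endomorphism. -/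
noncomputable def frobTheta : K →+* K :=
  letI := charTwo hK
  iterateFrobenius K 2 m

theorem frobTheta_apply (t : K) : frobTheta hK t = t ^ 2 ^ m := by
  have := charTwo hK
  rw [frobTheta, iterateFrobenius_def]

theorem frob_entry (g : SL(2, K)) (i j : Fin 2) :
    (Matrix.SpecialLinearGroup.map (frobTheta hK) g : Matrix (Fin 2) (Fin 2) K) i j =
      (g : Matrix (Fin 2) (Fin 2) K) i j ^ 2 ^ m :=
  frobTheta_apply hK _

/-- `SL₂` as the derived Levi subgroup. -/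
noncomputable def phi : SL(2, K) →* GL chevF4.Idx K :=
  MonoidHom.noncommCoprod
    (homA.comp (Matrix.SpecialLinearGroup.map (frobTheta hK))) homB
    (fun _ _ => hom_commute _ _) |>.comp ((MonoidHom.id _).prod (MonoidHom.id _))

theorem phi_apply (g : SL(2, K)) :
    phi hK g = homA (Matrix.SpecialLinearGroup.map (frobTheta hK) g) * homB g := rfl

theorem phi_upper (t : K) : phi hK (SL2Rel.upper t) = PP m t := by
  rw [phi_apply, homA, homB, SL2Rel.lift_upper (t := t) (g := SL2Rel.upper t) _ rfl,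
    SL2Rel.lift_upper (t := t ^ 2 ^ m) _ (by
      ext i j; rw [frob_entry hK]; fin_cases i <;> fin_cases j <;> simp [SL2Rel.upper])]
  simp [Sys.sl2Rel, simple_eq.1, simple_eq.2.2.2, pairEl]

theorem phi_lower (t : K) : phi hK (D4Cover.lower t) = NN m t := by
  rw [phi_apply, homA, homB, SL2Rel.lift_lower (t := t) (g := D4Cover.lower t) _ rfl,
    SL2Rel.lift_lower (t := t ^ 2 ^ m) _ (by
      ext i j; rw [frob_entry hK]; fin_cases i <;> fin_cases j <;> simp [D4Cover.lower])]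
  simp [Sys.sl2Rel, simple_eq.1, simple_eq.2.2.2, neg_eq.1, neg_eq.2.2.2.1, NN]

theorem lift_dia {G : Type*} [Group G] (R : SL2Rel K G) {g : SL(2, K)} {u : Kˣ}
    (hg : g = SL2Rel.dia u) : R.lift g = R.h u := by
  show R.toFun g = R.h u
  rw [hg, show (SL2Rel.dia u : SL(2, K)) = 1 * SL2Rel.dia u from (one_mul _).symm,
    R.toFun_mul_dia, R.toFun_one, one_mul]

theorem lift_weyl {G : Type*} [Group G] (R : SL2Rel K G) {g : SL(2, K)}
    (hg : g = SL2Rel.weyl) : R.lift g = R.w := by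
  show R.toFun g = R.w
  rw [hg, show (SL2Rel.weyl : SL(2, K)) = 1 * SL2Rel.weyl from (one_mul _).symm,
    R.toFun_mul_weyl, R.toFun_one, one_mul]

/-- The diagonal element of the pair. -/
noncomputable def HH (m : ℕ) (u : Kˣ) : GL chevF4.Idx K := tor chevF4 K (cv m (u ^ 2 ^ m) 1)

theorem phi_dia (u : Kˣ) : phi hK (SL2Rel.dia u) = HH m u := by
  rw [phi_apply, homA, homB, lift_dia hK _ (g := SL2Rel.dia u) rfl,
    lift_dia hK _ (u := u ^ 2 ^ m) (by
      ext i j; rw [frob_entry hK]; fin_cases i <;> fin_cases j <;> simp [SL2Rel.dia])]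
  show tor chevF4 K (Pi.mulSingle 0 (u ^ 2 ^ m)) * tor chevF4 K (Pi.mulSingle 3 u) = _
  rw [← map_mul, HH]
  refine tor_congr fun j hj => ?_
  interval_cases j <;> simp [cv, four, theta_sq hK]

theorem phi_weyl : phi hK SL2Rel.weyl = nn hK [1] := by
  have := charTwo hK
  rw [phi_apply, homA, homB, lift_weyl hK _ (g := SL2Rel.weyl) rfl,
    lift_weyl hK _ (by
      ext i j; rw [frob_entry hK]; fin_cases i <;> fin_cases j <;> simp [SL2Rel.weyl, CharTwo.neg_eq]), nn_single]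
  show _ = (Sys.wN S K (blkF 1) : GL chevF4.Idx K)
  rw [wN_blk]
  simp [Sys.sl2Rel, nL, blkN]

theorem HH_mem (u : Kˣ) : HH m u ∈ (tw hK).T := cv_mem_T hK _ _

theorem mem_X1 {x : GL chevF4.Idx K} : x ∈ (tw hK).X 1 ↔ ∃ t, x = PP m t := mem_XX1 hK

theorem PP_mem (t : K) : PP m t ∈ (tw hK).X 1 := (mem_X1 hK).mpr ⟨t, rfl⟩

theorem PP_mem_U (t : K) : PP m t ∈ UU hK := Tw.X_le_U E 1 (PP_mem hK t)

theorem PP_add (s t : K) : PP m (s + t) = PP m s * PP m t := by
  rw [← phi_upper hK, ← phi_upper hK, ← phi_upper hK, ← map_mul]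
  congr 1
  apply Subtype.ext
  rw [Matrix.SpecialLinearGroup.coe_mul, SL2Rel.upper_val, SL2Rel.upper_val, SL2Rel.upper_val]
  simp [add_comm]

theorem PP_zero : PP m (0 : K) = 1 := by
  simp [pairEl, Sys.xG_zero, zero_pow (pow_ne_zero m two_ne_zero)]

theorem nn_eq (L : List (Fin 2)) : nn hK L = nL S K (L.flatMap blkN) := by
  induction L with
  | nil => rw [nn_nil]; simp [nL]
  | cons i L ih =>
    rw [nn_cons, ih, nn_single, List.flatMap_cons, nL_append]
    show (Sys.wN S K (blkF i) : GL chevF4.Idx K) * _ = _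
    rw [wN_blk]

theorem conj_PP {L : List (Fin 2)} {r s : ℕ} (h : wlW chevF4 blkN L 33 = r ∧ wlW chevF4 blkN L 24 = s)
    (t : K) : nn hK L * PP m t * (nn hK L)⁻¹ = Sys.xG S K r (t ^ 2 ^ m) * Sys.xG S K s t := by
  have := charTwo hK
  have hL : ∀ a ∈ L.flatMap blkN, a < 4 := fun a ha => by
    obtain ⟨i, -, hi⟩ := List.mem_flatMap.mp ha
    exact blkN_lt i a hi
  have e : ∀ A B : GL chevF4.Idx K, nn hK L * (A * B) * (nn hK L)⁻¹ =
      (nn hK L * A * (nn hK L)⁻¹) * (nn hK L * B * (nn hK L)⁻¹) := by intros; group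
  obtain ⟨h1, h2⟩ := h
  simp only [PP, pairEl]
  rw [e, nn_eq, nL_conj_one hL (by omega), nL_conj_one hL (by omega)]
  exact congrArg₂ (· * ·) (congrArg (Sys.xG S K · _) h1) (congrArg (Sys.xG S K · _) h2)

theorem n1_PP (t : K) : nn hK [1] * PP m t * (nn hK [1])⁻¹ = NN m t :=
  conj_PP hK (by decide +kernel) t

theorem n0_PP (t : K) : nn hK w8 * PP m t * (nn hK w8)⁻¹ = NN m t :=
  conj_PP hK (by decide +kernel) t

theorem n0_NN (t : K) : nn hK w8 * NN m t * (nn hK w8)⁻¹ = PP m t := by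
  have e : nn hK w8 * NN m t * (nn hK w8)⁻¹ =
      nn hK (w8 ++ [1]) * PP m t * (nn hK (w8 ++ [1]))⁻¹ := by
    rw [nn_append, ← n1_PP hK]; group
  rw [e, conj_PP hK (r := 33) (s := 24) (by decide +kernel)]
  rfl

theorem n7_PP (t : K) : nn hK [0, 1, 0, 1, 0, 1, 0] * PP m t =
    PP m t * nn hK [0, 1, 0, 1, 0, 1, 0] := by
  rw [← mul_inv_eq_iff_eq_mul, conj_PP hK (r := 33) (s := 24) (by decide +kernel)]
  rfl

theorem n7_phi (g : SL(2, K)) : Commute (nn hK [0, 1, 0, 1, 0, 1, 0]) (phi hK g) := by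
  set n := nn hK [0, 1, 0, 1, 0, 1, 0] with hn
  have hN : ∀ t, Commute n (NN m t) := fun t => by
    rw [commute_iff_eq, ← mul_inv_eq_iff_eq_mul]
    have e : n * NN m t * n⁻¹ = nn hK ([0, 1, 0, 1, 0, 1, 0] ++ [1]) * PP m t *
        (nn hK ([0, 1, 0, 1, 0, 1, 0] ++ [1]))⁻¹ := by
      rw [nn_append, ← n1_PP hK, hn]; group
    rw [e, conj_PP hK (r := 14) (s := 23) (by decide +kernel)]
    rfl
  have h : g ∈ (Subgroup.centralizer {n}).comap (phi hK) := by
    refine D4Cover.sl2_induction (fun t => ?_) (fun t => ?_) g <;>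
      rw [Subgroup.mem_comap, Subgroup.mem_centralizer_singleton_iff]
    · rw [phi_upper]; exact (n7_PP hK t).symm
    · rw [phi_lower]; exact (hN t).eq.symm
  rw [Subgroup.mem_comap, Subgroup.mem_centralizer_singleton_iff] at h
  exact h.symm

/-- The radical. -/
noncomputable def QQ : Subgroup (GL chevF4.Idx K) := uSub chevF4 K (outSet chevF4 J03) ⊓ Tw.G E

/-- The opposite radical. -/
noncomputable def QN : Subgroup (GL chevF4.Idx K) :=
  (QQ hK).comap (MulAut.conj (nn hK w8)).toMonoidHom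

theorem mem_QN {a : GL chevF4.Idx K} : a ∈ QN hK ↔ nn hK w8 * a * (nn hK w8)⁻¹ ∈ QQ hK := by
  simp [QN]

theorem QQ_le_U : QQ hK ≤ UU hK := inf_le_inf_right _ (uSub_le_posUnipotent K _)

theorem QN_le_V : QN hK ≤ VV hK := Subgroup.comap_mono (QQ_le_U hK)

/-- The criterion for the radical. -/
theorem mem_QQ_of_conj {u : GL chevF4.Idx K} (hu : u ∈ UU hK)
    (hc : nn hK [1] * u * (nn hK [1])⁻¹ ∈ UU hK) : u ∈ QQ hK := by
  obtain ⟨hu1, huG⟩ := hu
  set n := Tw.nW E [1] with hn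
  rw [← Sys.uSub_kept_union_flip S K n] at hu1
  obtain ⟨p, hp, x, hx, rfl⟩ := Sys.uSub_union_mul S K (Sys.closed_keptSet S K n)
    (Sys.closed_flipSet S K n) (Sys.closed_kept_union_flip S K n) hu1
  have hx1 : x = 1 := by
    have h1 : nn hK [1] * p * (nn hK [1])⁻¹ ∈ chevF4.posUnipotent K := Sys.conj_kept S K n hp
    have h2 : nn hK [1] * x * (nn hK [1])⁻¹ ∈ chevF4.posUnipotent K := by
      have h3 := mul_mem (inv_mem h1) hc.1
      simpa [mul_assoc] using h3
    have h3 : nn hK [1] * x * (nn hK [1])⁻¹ ∈ chevF4.negUnipotent K := by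
      have := charTwo hK
      rw [hn, Tw.flip_blk E] at hx
      rw [nn_single]
      show (Sys.wN S K (blkF 1) : GL chevF4.Idx K) * x * _⁻¹ ∈ _
      rw [wN_blk]
      exact flip_neg 1 hx
    have h4 : nn hK [1] * x * (nn hK [1])⁻¹ ∈
        chevF4.borelSubgroup K ⊓ chevF4.negUnipotent K := ⟨Subgroup.mem_sup_left h2, h3⟩
    rw [Sys.borel_inf_neg S K, Subgroup.mem_bot, conj_eq_one_iff] at h4
    exact h4
  subst hx1
  rw [mul_one] at huG ⊢
  refine ⟨?_, huG⟩
  refine Sys.uSub_le S K (fun r hr h1 h2 u =>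
    Sys.xG_mem_uSub S K (out_of_pos h1 h2 ?_) h1 h2 u) hp
  intro hcls
  obtain ⟨hr', hk⟩ := hr
  have h5 := (Tw.blk_neg' E 1 h2 h1).mpr hcls
  rw [hn, Tw.perm_nW, Tw.wW_single] at hk
  omega

theorem U_split1 {u : GL chevF4.Idx K} (hu : u ∈ UU hK) :
    ∃ q ∈ QQ hK, ∃ t : K, u = q * PP m t := by
  obtain ⟨a, ha, x, hx, e, han⟩ := Tw.U_split E 1 hu
  obtain ⟨t, rfl⟩ := (mem_X1 hK).mp hx
  exact ⟨a, mem_QQ_of_conj hK ha (by rw [nn_single]; exact han), t, e⟩

theorem V_split1 {a : GL chevF4.Idx K} (ha : a ∈ VV hK) :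
    ∃ q ∈ QN hK, ∃ t : K, a = q * NN m t := by
  obtain ⟨q, hq, t, e⟩ := U_split1 hK ((mem_VV hK).mp ha)
  refine ⟨a * (NN m t)⁻¹, ?_, t, by rw [inv_mul_cancel_right]⟩
  rw [mem_QN]
  have h : nn hK w8 * (a * (NN m t)⁻¹) * (nn hK w8)⁻¹ =
      (nn hK w8 * a * (nn hK w8)⁻¹) * (nn hK w8 * NN m t * (nn hK w8)⁻¹)⁻¹ := by group
  rw [h, n0_NN, e, mul_inv_cancel_right]
  exact hq

/-- The Levi subgroup. -/
noncomputable def LL : Subgroup (GL chevF4.Idx K) :=
  (chevF4.leviSubgroup K J03 ⊓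
    (chevF4.leviSubgroup K J03).comap (MulAut.conj (nn hK w8)).toMonoidHom) ⊓ Tw.G E

theorem mem_LL {g : GL chevF4.Idx K} : g ∈ LL hK ↔ (g ∈ chevF4.leviSubgroup K J03 ∧
    nn hK w8 * g * (nn hK w8)⁻¹ ∈ chevF4.leviSubgroup K J03) ∧ g ∈ Tw.G E := by
  simp [LL, Subgroup.mem_inf]

theorem PP_levi (t : K) : PP m t ∈ chevF4.leviSubgroup K J03 :=
  mul_mem (Sys.levi_xG_mem S K (levi_roots (by simp)) _)
    (Sys.levi_xG_mem S K (levi_roots (by simp)) _)

theorem NN_levi (t : K) : NN m t ∈ chevF4.leviSubgroup K J03 :=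
  mul_mem (Sys.levi_xG_mem S K (levi_roots (by simp)) _)
    (Sys.levi_xG_mem S K (levi_roots (by simp)) _)

theorem T_LL : (tw hK).T ≤ LL hK := fun t ht => (mem_LL hK).mpr
  ⟨⟨Subgroup.mem_sup_left ((tw hK).T_le ht),
    Subgroup.mem_sup_left ((tw hK).T_le (T_conj_nn hK w8 ht).1)⟩, T_le' hK ht⟩

theorem PP_LL (t : K) : PP m t ∈ LL hK :=
  (mem_LL hK).mpr ⟨⟨PP_levi hK t, (n0_PP hK t).symm ▸ NN_levi hK t⟩, (tw hK).X_mem 1 (PP_mem hK t)⟩

theorem NN_LL (t : K) : NN m t ∈ LL hK := by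
  refine (mem_LL hK).mpr ⟨⟨NN_levi hK t, (n0_NN hK t).symm ▸ PP_levi hK t⟩, ?_⟩
  rw [← n1_PP hK]
  exact mul_mem (mul_mem (nn_mem hK _) ((tw hK).X_mem 1 (PP_mem hK t))) (inv_mem (nn_mem hK _))

theorem phi_LL (g : SL(2, K)) : phi hK g ∈ LL hK :=
  D4Cover.sl2_induction (H := (LL hK).comap (phi hK))
    (fun t => by rw [Subgroup.mem_comap, phi_upper]; exact PP_LL hK t)
    (fun t => by rw [Subgroup.mem_comap, phi_lower]; exact NN_LL hK t) g

theorem LL_conj {g q : GL chevF4.Idx K} (hg : g ∈ LL hK) (hq : q ∈ QQ hK) :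
    g * q * g⁻¹ ∈ QQ hK :=
  ⟨(Subgroup.mem_normalizer_iff.mp (Sys.levi_le_normalizer S K suppF4 J03 ((mem_LL hK).mp hg).1.1) q).mp
    hq.1, Subgroup.mul_mem _ (Subgroup.mul_mem _ ((mem_LL hK).mp hg).2 hq.2)
    (Subgroup.inv_mem _ ((mem_LL hK).mp hg).2)⟩

theorem LL_conj_neg {g q : GL chevF4.Idx K} (hg : g ∈ LL hK) (hq : q ∈ QN hK) :
    g * q * g⁻¹ ∈ QN hK := by
  rw [mem_QN] at hq ⊢
  have hl := ((mem_LL hK).mp hg).1.2
  set n := nn hK w8
  have hG : n * g * n⁻¹ ∈ Tw.G E :=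
    mul_mem (mul_mem (nn_mem hK _) ((mem_LL hK).mp hg).2) (inv_mem (nn_mem hK _))
  have e : n * (g * q * g⁻¹) * n⁻¹ = (n * g * n⁻¹) * (n * q * n⁻¹) * (n * g * n⁻¹)⁻¹ := by group
  rw [e]
  exact ⟨(Subgroup.mem_normalizer_iff.mp (Sys.levi_le_normalizer S K suppF4 J03 hl) _).mp hq.1,
    Subgroup.mul_mem _ (Subgroup.mul_mem _ hG hq.2) (Subgroup.inv_mem _ hG)⟩

/-- A torus element moving the roots of the radical fixes only the identity there. -/
theorem tor_free {c : ℕ → Kˣ}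
    (hc : ∀ r ∈ outSet chevF4 J03, 24 ≤ r → r < 48 → torusVal chevF4 c r ≠ 1)
    {u : GL chevF4.Idx K} (hu : u ∈ uSub chevF4 K (outSet chevF4 J03))
    (h : tor chevF4 K c * u = u * tor chevF4 K c) : u = 1 := by
  obtain ⟨t, ht, rfl⟩ := Sys.exists_ordProd_half S K (Sys.closed_outSet S suppF4 _) hu
  have key : ∀ L : List ℕ, (∀ r ∈ L, r < chevF4.nroots) →
      tor chevF4 K c * Sys.wG S K (L.map fun r => (r, t r)) * (tor chevF4 K c)⁻¹ =
        Sys.wG S K (L.map fun r => (r, (torusVal chevF4 c r : K) * t r)) := by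
    intro L
    induction L with
    | nil => intro; simp [Sys.wG]
    | cons a L ih =>
      intro hL
      have ih' := ih fun r hr => hL r (List.mem_cons_of_mem _ hr)
      simp only [Sys.wG, List.map_cons, List.prod_cons] at ih' ⊢
      rw [← ih', ← Sys.tor_conj S K c (hL a (List.mem_cons_self ..))]
      group
  have e : tor chevF4 K c * Sys.ordProd S K t (chevF4.nroots / 2) * (tor chevF4 K c)⁻¹ =
      Sys.ordProd S K (fun r => (torusVal chevF4 c r : K) * t r) (chevF4.nroots / 2) :=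
    key _ fun r hr => by
      rw [List.mem_range'_1] at hr
      omega
  rw [h, mul_inv_cancel_right] at e
  have hz : ∀ r, chevF4.nroots / 2 ≤ r → r < chevF4.nroots → t r = 0 := by
    intro r h1 h2
    by_contra h0
    have h3 := Sys.ordProd_inj_half S K e h1 h2
    refine hc r (ht r h0).1 h1 h2 (Units.ext ?_)
    exact (mul_eq_right₀ h0).1 h3.symm
  have h4 : ∀ L : List ℕ, (∀ r ∈ L, chevF4.nroots / 2 ≤ r ∧ r < chevF4.nroots) →
      Sys.wG S K (L.map fun r => (r, t r)) = 1 := by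
    intro L
    induction L with
    | nil => intro; simp [Sys.wG]
    | cons a L ih =>
      intro hL
      have ih' := ih fun r hr => hL r (List.mem_cons_of_mem _ hr)
      have ha := hL a (List.mem_cons_self ..)
      simp only [Sys.wG, List.map_cons, List.prod_cons] at ih' ⊢
      rw [ih', hz a ha.1 ha.2, Sys.xG_zero, one_mul]
  exact h4 _ fun r hr => by
    rw [List.mem_range'_1] at hr
    omega

/-- The central element. -/
noncomputable def zz (m : ℕ) (g : Kˣ) : GL chevF4.Idx K := tor chevF4 K (cv m g (g ^ 2))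

theorem zz_mem (g : Kˣ) : zz m g ∈ (tw hK).T := cv_mem_T hK _ _

/-- The constant part of the exponent of a root value. -/
def expA (r : ℕ) : ℤ := chevF4.cartan 0 r + 2 * chevF4.cartan 1 r

/-- The part of the exponent multiplied by `2θ`. -/
def expB (r : ℕ) : ℤ := chevF4.cartan 3 r + 2 * chevF4.cartan 2 r

theorem zz_val (g : Kˣ) (r : ℕ) : torusVal chevF4 (cv m g (g ^ 2)) r =
    g ^ (expA r + expB r * (2 * 2 ^ m : ℕ)) := by
  rw [torusVal_four]
  simp only [cv, four, expA, expB]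
  have e : ∀ (k : ℕ) (n : ℤ), (g ^ k) ^ n = g ^ ((k : ℤ) * n) := fun k n => by
    rw [← zpow_natCast g k, ← zpow_mul]
  simp only [if_true, OfNat.ofNat_ne_zero, OfNat.ofNat_ne_one, one_ne_zero, if_false,
    show (3 : ℕ) ≠ 2 by decide, ← pow_mul]
  rw [e, e, e, ← zpow_add, ← zpow_add, ← zpow_add]
  congr 1
  push_cast
  ring

omit hK in
theorem exp_tab : ∀ r < 48, |expA r| ≤ 4 ∧ |expB r| ≤ 3 ∧
    (r ∈ [14, 23, 24, 33] ↔ expA r = 0 ∧ expB r = 0) ∧
    (r ∉ [14, 23, 24, 33] → (expA r + 4 * expB r) % 7 ≠ 0) := by decide +kernel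

theorem zz_fix (g : Kˣ) {r : ℕ} (hr : r ∈ [14, 23, 24, 33]) :
    torusVal chevF4 (cv m g (g ^ 2)) r = 1 := by
  have h48 : r < 48 := (by decide : ∀ r ∈ [14, 23, 24, 33], r < 48) r hr
  obtain ⟨h1, h2⟩ := (exp_tab r h48).2.2.1.mp hr
  rw [zz_val hK, h1, h2]
  simp

theorem zz_move (hm : 1 ≤ m) {g : Kˣ} (hg : orderOf g = 2 ^ (2 * m + 1) - 1) {r : ℕ} (h48 : r < 48)
    (hr : r ∉ [14, 23, 24, 33]) : torusVal chevF4 (cv m g (g ^ 2)) r ≠ 1 := by
  obtain ⟨hA, hB, h0, h7⟩ := exp_tab r h48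
  rw [zz_val hK]
  intro h
  rw [← orderOf_dvd_iff_zpow_eq_one, hg] at h
  set T : ℤ := (2 : ℤ) ^ m with hT
  have h' : (2 * T * T - 1) ∣ expA r + expB r * (2 * T) := by
    have e : ((2 ^ (2 * m + 1) - 1 : ℕ) : ℤ) = 2 * T * T - 1 := by
      rw [Nat.cast_sub Nat.one_le_two_pow, hT]
      push_cast
      ring
    rw [e] at h
    simpa [hT] using h
  rcases Nat.lt_or_ge m 2 with hm2 | hm2
  · obtain rfl : m = 1 := by omega
    refine h7 hr ?_
    norm_num [hT] at h'
    omega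
  · have hT4 : 4 ≤ T := by
      have := pow_le_pow_right₀ (show (1 : ℤ) ≤ 2 by norm_num) hm2
      rw [hT]; linarith
    have hz : expA r + expB r * (2 * T) = 0 := by
      refine Int.eq_zero_of_abs_lt_dvd h' ?_
      calc |expA r + expB r * (2 * T)| ≤ |expA r| + |expB r * (2 * T)| := abs_add_le _ _
        _ ≤ 4 + 3 * (2 * T) := by
          rw [abs_mul, abs_of_nonneg (show (0 : ℤ) ≤ 2 * T by linarith)]
          exact add_le_add hA (mul_le_mul_of_nonneg_right hB (by linarith))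
        _ < 2 * T * T - 1 := by nlinarith
    refine hr (h0.mpr ?_)
    have hB0 : expB r = 0 := by
      by_contra hne
      have h1 : 1 ≤ |expB r| := Int.one_le_abs hne
      have h2 : |expA r| = |expB r| * (2 * T) := by
        rw [show expA r = -(expB r * (2 * T)) by linarith, abs_neg, abs_mul,
          abs_of_nonneg (show (0 : ℤ) ≤ 2 * T by linarith)]
      nlinarith
    exact ⟨by rw [hB0, zero_mul, add_zero] at hz; exact hz, hB0⟩

theorem zz_comm_phi (g : Kˣ) (M : SL(2, K)) : Commute (zz m g) (phi hK M) := by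
  have hroot : ∀ r ∈ [14, 23, 24, 33], ∀ t : K,
      Commute (zz m g) (Sys.xG S K r t) := by
    intro r hr t
    have h48 : r < chevF4.nroots := (by decide : ∀ r ∈ [14, 23, 24, 33], r < 48) r hr
    rw [commute_iff_eq, ← mul_inv_eq_iff_eq_mul, zz, Sys.tor_conj S K _ h48, zz_fix hK g hr]
    simp
  have h : M ∈ (Subgroup.centralizer {zz m g}).comap (phi hK) := by
    refine D4Cover.sl2_induction (fun t => ?_) (fun t => ?_) M <;>
      rw [Subgroup.mem_comap, Subgroup.mem_centralizer_singleton_iff]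
    · rw [phi_upper]
      exact ((hroot 33 (by simp) _).mul_right (hroot 24 (by simp) _)).eq.symm
    · rw [phi_lower]
      exact ((hroot 14 (by simp) _).mul_right (hroot 23 (by simp) _)).eq.symm
  rw [Subgroup.mem_comap, Subgroup.mem_centralizer_singleton_iff] at h
  exact h.symm

theorem zz_free (hm : 1 ≤ m) {g : Kˣ} (hg : orderOf g = 2 ^ (2 * m + 1) - 1)
    {u : GL chevF4.Idx K} (hu : u ∈ QQ hK) (h : zz m g * u = u * zz m g) : u = 1 := by
  refine tor_free hK (fun r hr h1 h2 => zz_move hK hm hg h2 ?_) hu.1 h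
  intro hr'
  exact not_cls_of_out hr ((by decide +kernel : ∀ r ∈ [14, 23, 24, 33], 24 ≤ r → r ∈ clsN 1) r hr' h1)

theorem zz_free_neg (hm : 1 ≤ m) {g : Kˣ} (hg : orderOf g = 2 ^ (2 * m + 1) - 1)
    {u : GL chevF4.Idx K} (hu : u ∈ QN hK) (h : zz m g * u = u * zz m g) : u = 1 := by
  have := charTwo hK
  rw [mem_QN] at hu
  set n := nn hK w8 with hn
  obtain ⟨a, b, e⟩ := exists_cv hK (T_conj_nn hK w8 (zz_mem hK g)).1
  rw [← hn] at e
  have hwl : ∀ r, 24 ≤ r → r < 48 → r ∉ clsN 1 → wlW chevF4 blkN w8 r < 48 ∧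
      wlW chevF4 blkN w8 r ∉ [14, 23, 24, 33] ∧ wlW chevF4 blkN w8 (wlW chevF4 blkN w8 r) = r :=
    fun r h1 h2 h3 => (by decide +kernel : ∀ r < 48, 24 ≤ r → r ∉ clsN 1 →
      wlW chevF4 blkN w8 r < 48 ∧ wlW chevF4 blkN w8 r ∉ [14, 23, 24, 33] ∧
        wlW chevF4 blkN w8 (wlW chevF4 blkN w8 r) = r) r h2 h1 h3
  have hu1 : n * u * n⁻¹ = 1 := by
    refine tor_free hK (c := cv m a b) (fun r hr h1 h2 hv => ?_) hu.1 ?_
    · obtain ⟨h3, h4, h5⟩ := hwl r h1 h2 (not_cls_of_out hr)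
      set s := wlW chevF4 blkN w8 r with hs
      refine zz_move hK hm hg h3 h4 ?_
      have hL : ∀ c ∈ w8.flatMap blkN, c < 4 := by decide +kernel
      have hc : ∀ t : K, n * Sys.xG S K s t * n⁻¹ = Sys.xG S K r t := fun t => by
        rw [hn, nn_eq, nL_conj_one hL h3]
        exact congrArg (Sys.xG S K · t) h5
      have h6 : tor chevF4 K (cv m a b) * Sys.xG S K r 1 * (tor chevF4 K (cv m a b))⁻¹ =
          n * (zz m g * Sys.xG S K s 1 * (zz m g)⁻¹) * n⁻¹ := by
        rw [← hc, ← e]; group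
      rw [zz, Sys.tor_conj S K _ (show r < chevF4.nroots from h2), hv,
        Sys.tor_conj S K _ (show s < chevF4.nroots from h3), hc, mul_one] at h6
      exact Units.ext (by simpa using (xG_inj S K (r := r) h2 h6).symm)
    · rw [← e]
      calc n * zz m g * n⁻¹ * (n * u * n⁻¹) = n * (zz m g * u) * n⁻¹ := by group
        _ = n * (u * zz m g) * n⁻¹ := by rw [h]
        _ = _ := by group
  exact conj_eq_one_iff.mp hu1

end CfsgLib.F4Cover
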