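import Cfsg.Agent.F4Cover.Gauss

/-!
One class of elements of odd order of `²F₄(q)`, `q ≥ 8`, whose square covers the non-identity elements.
-/

set_option autoImplicit false
set_option linter.unusedSectionVars false
set_option linter.unusedFintypeInType false
set_option maxHeartbeats 800000

namespace CfsgLib.F4Cover

open Cfsg.Lie CfsgLib.Chevalley CfsgLib.TwistedLie CfsgLib.TwistedLie.F4
open CfsgLib.D4Cover (Free Covered covered_mul)
open CfsgLib.G2Cover (splitsAs_two sq_surjective_two exists_conj_of_trace_det)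
open scoped MatrixGroups

local notation "S" => sysF4

variable {K : Type*} [Field K] [Fintype K] {m : ℕ} (hK : Fintype.card K = 2 ^ (2 * m + 1))
include hK

local notation "E" => tw hK

/-- The coordinate of a positive element along the pair. -/
def Cmp (u : GL chevF4.Idx K) (d : K) : Prop := ∃ q ∈ QQ hK, u = q * PP m d

theorem Cmp.mul {u v : GL chevF4.Idx K} {c d : K} (hu : Cmp hK u c) (hv : Cmp hK v d) :
    Cmp hK (u * v) (c + d) := by
  obtain ⟨q, hq, rfl⟩ := hu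
  obtain ⟨q', hq', rfl⟩ := hv
  refine ⟨q * (PP m c * q' * (PP m c)⁻¹), mul_mem hq (LL_conj hK (PP_LL hK c) hq'), ?_⟩
  rw [PP_add hK]
  group

theorem Cmp.of_QQ {q : GL chevF4.Idx K} (hq : q ∈ QQ hK) : Cmp hK q 0 :=
  ⟨q, hq, by rw [PP_zero hK, mul_one]⟩

theorem Cmp.of_PP (d : K) : Cmp hK (PP m d) d := ⟨1, one_mem _, (one_mul _).symm⟩

theorem PP_inv (d : K) : (PP m d)⁻¹ = PP m d := by
  have := charTwo hK
  refine inv_eq_of_mul_eq_one_right ?_
  rw [← PP_add hK, CharTwo.add_self_eq_zero, PP_zero hK]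

theorem Cmp.inv {u : GL chevF4.Idx K} {d : K} (hu : Cmp hK u d) : Cmp hK u⁻¹ d := by
  obtain ⟨q, hq, rfl⟩ := hu
  refine ⟨PP m d * q⁻¹ * (PP m d)⁻¹, LL_conj hK (PP_LL hK d) (inv_mem hq), ?_⟩
  have := charTwo hK
  rw [mul_inv_rev, PP_inv hK, mul_assoc (PP m d * q⁻¹), ← PP_add hK, CharTwo.add_self_eq_zero,
    PP_zero hK, mul_one]

theorem Cmp.mem {u : GL chevF4.Idx K} {d : K} (hu : Cmp hK u d) : u ∈ UU hK := by
  obtain ⟨q, hq, rfl⟩ := hu
  exact mul_mem (QQ_le_U hK hq) (PP_mem_U hK d)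

/-- The scalar by which a torus element acts on the pair. -/
theorem exists_chi {t : GL chevF4.Idx K} (ht : t ∈ (tw hK).T) :
    ∃ χ : K, χ ≠ 0 ∧ ∀ d : K, t * PP m d * t⁻¹ = PP m (χ * d) := by
  obtain ⟨a, b, rfl⟩ := exists_cv hK ht
  set v := torusVal chevF4 (cv m a b) 24 with hv
  refine ⟨(v : K), v.ne_zero, fun d => ?_⟩
  have h33 : torusVal chevF4 (cv m a b) 33 = v ^ 2 ^ m := by
    obtain ⟨h0, h3⟩ := (by decide +kernel : (∀ j, j < 4 → chevF4.cartan j 33 = [2, -1, 0, 0].getD j 0) ∧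
      ∀ j, j < 4 → chevF4.cartan j 24 = [0, 0, -1, 2].getD j 0)
    rw [hv, torusVal_four, torusVal_four, h0 0 (by omega), h0 1 (by omega), h0 2 (by omega),
      h0 3 (by omega), h3 0 (by omega), h3 1 (by omega), h3 2 (by omega), h3 3 (by omega)]
    simp [cv, four]
    have hb : (b ^ (2 * 2 ^ m)) ^ 2 ^ m = b := by
      rw [← pow_mul]; exact Units.ext (by simpa using sq_pow hK (b : K))
    have ha : (a ^ (2 * 2 ^ m)) ^ 2 ^ m = a := by
      rw [← pow_mul]; exact Units.ext (by simpa using sq_pow hK (a : K))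
    rw [mul_pow, inv_pow, hb, ← pow_mul (a ^ (2 * 2 ^ m)) 2, mul_comm 2 (2 ^ m), pow_mul,
      mul_comm (2 ^ m) 2, ha, mul_comm]
  show _ * (Sys.xG S K 33 (d ^ 2 ^ m) * Sys.xG S K 24 d) * _ = _
  rw [show ∀ T A B : GL chevF4.Idx K, T * (A * B) * T⁻¹ = (T * A * T⁻¹) * (T * B * T⁻¹) from
    fun T A B => by group, Sys.tor_conj S K _ (by decide), Sys.tor_conj S K _ (by decide), h33]
  show _ = Sys.xG S K 33 (((v : K) * d) ^ 2 ^ m) * Sys.xG S K 24 ((v : K) * d)
  rw [mul_pow, Units.val_pow_eq_pow_val]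

theorem exists_chi_neg {t : GL chevF4.Idx K} (ht : t ∈ (tw hK).T) :
    ∃ χ : K, χ ≠ 0 ∧ ∀ c : K, t * NN m c * t⁻¹ = NN m (χ * c) := by
  obtain ⟨χ, hχ, h⟩ := exists_chi hK (T_conj_nn hK [1] ht).2
  refine ⟨χ, hχ, fun c => ?_⟩
  rw [← n1_PP hK, ← n1_PP hK, ← h]
  group

theorem Cmp.conj {t u : GL chevF4.Idx K} {χ d : K} (ht : t ∈ (tw hK).T)
    (hχ : ∀ d : K, t * PP m d * t⁻¹ = PP m (χ * d)) (hu : Cmp hK u d) :
    Cmp hK (t * u * t⁻¹) (χ * d) := by
  obtain ⟨q, hq, rfl⟩ := hu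
  refine ⟨t * q * t⁻¹, LL_conj hK (T_LL hK ht) hq, ?_⟩
  rw [← hχ]
  group

/-- The matrix of order three. -/
def M0 : SL(2, K) := ⟨!![0, 1; 1, 1], by
  have := charTwo hK
  simp [Matrix.det_fin_two, CharTwo.neg_eq]⟩

/-- The element whose class is squared. -/
noncomputable def xx (g : Kˣ) : GL chevF4.Idx K := zz m g * phi hK (M0 hK)

theorem M0_cube : (M0 hK) ^ 3 = 1 := by
  have := charTwo hK
  apply Subtype.ext
  rw [pow_succ, pow_two, Matrix.SpecialLinearGroup.coe_mul, Matrix.SpecialLinearGroup.coe_mul,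
    Matrix.SpecialLinearGroup.coe_one]
  simp only [M0]
  ext i j
  fin_cases i <;> fin_cases j <;>
    simp [Matrix.mul_apply, Fin.sum_univ_two, CharTwo.add_self_eq_zero]

theorem zz_pow (g : Kˣ) (k : ℕ) : (zz m g : GL chevF4.Idx K) ^ k = zz m (g ^ k) := by
  rw [zz, zz, ← map_pow]
  congr 1
  funext j
  simp only [Pi.pow_apply, cv, four]
  split_ifs <;> simp [← pow_mul, mul_comm, mul_left_comm, mul_assoc]

theorem zz_one : (zz m (1 : Kˣ) : GL chevF4.Idx K) = 1 := by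
  rw [zz, show cv m (1 : Kˣ) (1 ^ 2) = 1 by simp [cv, four_one], map_one]

theorem order_data : ∃ j : ℕ, 2 ^ (2 * m + 1) - 1 = 3 * j + 1 := by
  refine ⟨(2 ^ (2 * m + 1) - 1) / 3, ?_⟩
  have h : 2 ^ (2 * m + 1) % 3 = 2 := by
    rw [pow_succ, pow_mul, Nat.mul_mod, Nat.pow_mod]
    norm_num
  omega

theorem xx_odd {g : Kˣ} (hg : orderOf g = 2 ^ (2 * m + 1) - 1) : Odd (orderOf (xx hK g)) := by
  have h1 : (xx hK g) ^ (3 * (2 ^ (2 * m + 1) - 1)) = 1 := by
    rw [xx, (zz_comm_phi hK g (M0 hK)).mul_pow, zz_pow hK, pow_mul', ← hg, pow_orderOf_eq_one,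
      one_pow, zz_one hK, one_mul, ← map_pow, pow_mul, M0_cube, one_pow, map_one]
  refine Odd.of_dvd_nat ?_ (orderOf_dvd_of_pow_eq_one h1)
  have h2 : 1 ≤ 2 ^ (2 * m + 1) := Nat.one_le_two_pow
  have h3 : Even (2 ^ (2 * m + 1)) := ⟨2 ^ (2 * m), by rw [pow_succ]; ring⟩
  exact Odd.mul (by decide) (by
    obtain ⟨k, hk⟩ := h3
    exact ⟨k - 1, by omega⟩)

theorem xx_mem (g : Kˣ) : xx hK g ∈ LL hK := mul_mem (T_LL hK (zz_mem hK g)) (phi_LL hK _)

/-- Conjugates of the element inside the Levi subgroup act freely on both radicals. -/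
theorem free_conj (hm : 1 ≤ m) {g : Kˣ} (hg : orderOf g = 2 ^ (2 * m + 1) - 1) {B : SL(2, K)}
    (hB : B ^ 3 = 1) :
    Free (QQ hK) (zz m g * phi hK B) ∧ Free (QN hK) (zz m g * phi hK B) := by
  have hy : zz m g * phi hK B ∈ LL hK := mul_mem (T_LL hK (zz_mem hK g)) (phi_LL hK _)
  set y := zz m g * phi hK B with hydef
  obtain ⟨j, hj⟩ := order_data hK
  have h3 : y ^ 3 = (zz m g) ^ 3 := by
    rw [hydef, (zz_comm_phi hK g B).mul_pow, ← map_pow, hB, map_one, mul_one]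
  have hz : zz m g = ((y ^ 3) ^ j)⁻¹ := by
    have h1 : (zz m g : GL chevF4.Idx K) ^ (3 * j + 1) = 1 := by
      rw [zz_pow hK, ← hj, ← hg, pow_orderOf_eq_one, zz_one hK]
    rw [h3, ← pow_mul]
    exact eq_inv_of_mul_eq_one_left (by rwa [← pow_succ'])
  have hcomm : ∀ u, y * u = u * y → zz m g * u = u * zz m g := by
    intro u hu
    rw [hz]
    exact (((show Commute y u from hu).pow_left 3).pow_left j).inv_left
  exact ⟨⟨fun u hu => LL_conj hK hy hu, fun u hu h => zz_free hK hm hg hu (hcomm u h)⟩,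
    ⟨fun u hu => LL_conj_neg hK hy hu, fun u hu h => zz_free_neg hK hm hg hu (hcomm u h)⟩⟩

theorem trace_prod (l : Kˣ) (c d : K) :
    ((D4Cover.lower c * SL2Rel.dia l * SL2Rel.upper d : SL(2, K)) :
      Matrix (Fin 2) (Fin 2) K).trace = (l : K) + ((l : K) * c * d + (l : K)⁻¹) := by
  simp only [Matrix.SpecialLinearGroup.coe_mul, D4Cover.lower_val, SL2Rel.dia_val, SL2Rel.upper_val,
    Matrix.mul_fin_two, Matrix.trace_fin_two_of]
  ring

theorem conj_M0 {B : SL(2, K)} (hB : (B : Matrix (Fin 2) (Fin 2) K).trace = 1) :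
    ∃ k : SL(2, K), B = k * M0 hK * k⁻¹ := by
  have := charTwo hK
  have hns : ∀ A : Matrix (Fin 2) (Fin 2) K, A.trace = 1 → G2Cover.NonScalar A := by
    intro A hA h
    rw [Matrix.trace_fin_two, h.2.2, CharTwo.add_self_eq_zero] at hA
    exact zero_ne_one hA
  have h0 : ((M0 hK : SL(2, K)) : Matrix (Fin 2) (Fin 2) K).trace = 1 := by
    simp [M0, Matrix.trace_fin_two]
  obtain ⟨P, hP⟩ := exists_conj_of_trace_det (B : Matrix (Fin 2) (Fin 2) K) (M0 hK : SL(2, K))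
    (hns _ hB) (hns _ h0) (by rw [hB, h0]) (by rw [B.2, (M0 hK).2])
  have hdet : (P : Matrix (Fin 2) (Fin 2) K).det ≠ 0 :=
    (Matrix.isUnit_iff_isUnit_det _).mp P.isUnit |>.ne_zero
  obtain ⟨s, hs⟩ := sq_surjective_two (F := K) ((P : Matrix (Fin 2) (Fin 2) K).det)⁻¹
  obtain ⟨k, hk⟩ : ∃ k : SL(2, K),
      (k : Matrix (Fin 2) (Fin 2) K) = s • (P : Matrix (Fin 2) (Fin 2) K) :=
    ⟨⟨_, by rw [Matrix.det_smul, Fintype.card_fin, hs, inv_mul_cancel₀ hdet]⟩, rfl⟩
  refine ⟨k, ?_⟩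
  have h1 : B * k = k * M0 hK := by
    apply Subtype.ext
    rw [Matrix.SpecialLinearGroup.coe_mul, Matrix.SpecialLinearGroup.coe_mul, hk, Matrix.mul_smul,
      Matrix.smul_mul]
    congr 1
    rw [hP, mul_assoc, Units.inv_mul, mul_one]
  rw [← h1, mul_inv_cancel_right]

/-- An element `y N(c) z² H(λ) P(d) b` with non-vanishing trace is covered. -/
theorem covered_form (hm : 1 ≤ m) {g : Kˣ} (hg : orderOf g = 2 ^ (2 * m + 1) - 1) (l : Kˣ) {c d : K}
    {y b : GL chevF4.Idx K} (hy : y ∈ QN hK) (hb : b ∈ QQ hK)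
    (htr : (l : K) + ((l : K) * c * d + (l : K)⁻¹) ≠ 0) :
    Covered (Tw.G E) (xx hK g) (y * NN m c * (zz m g * zz m g * HH m l) * PP m d * b) := by
  have := charTwo hK
  set M : SL(2, K) := D4Cover.lower c * SL2Rel.dia l * SL2Rel.upper d with hM
  obtain ⟨B, C, hBC, hBt, hBd, hCt, hCd⟩ := splitsAs_two (F := K)
    (A := (M : Matrix (Fin 2) (Fin 2) K)) (by rw [hM, trace_prod hK]; exact htr)
    (t := 1) (d := 1) (k := 1) one_ne_zero
  rw [M.2, div_self one_ne_zero] at hCd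
  rw [div_self one_ne_zero] at hCt
  obtain ⟨B', hB'⟩ : ∃ B' : SL(2, K), (B' : Matrix (Fin 2) (Fin 2) K) = B := ⟨⟨B, hBd⟩, rfl⟩
  obtain ⟨C', hC'⟩ : ∃ C' : SL(2, K), (C' : Matrix (Fin 2) (Fin 2) K) = C := ⟨⟨C, hCd⟩, rfl⟩
  have hMe : M = B' * C' := Subtype.ext (hBC.trans (by rw [Matrix.SpecialLinearGroup.coe_mul, hB', hC']))
  obtain ⟨kB, hkB⟩ := conj_M0 hK (B := B') (by rw [hB', hBt])
  obtain ⟨kC, hkC⟩ := conj_M0 hK (B := C') (by rw [hC', hCt])
  have hx : ∀ k : SL(2, K), ∃ h ∈ Tw.G E,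
      zz m g * phi hK (k * M0 hK * k⁻¹) = h * xx hK g * h⁻¹ := fun k => by
    refine ⟨phi hK k, ((mem_LL hK).mp (phi_LL hK k)).2, ?_⟩
    rw [map_mul, map_mul, map_inv, xx, ← mul_assoc (phi hK k) (zz m g),
      ← (zz_comm_phi hK g k).eq]
    simp only [mul_assoc]
  have h3 : ∀ k : SL(2, K), (k * M0 hK * k⁻¹) ^ 3 = 1 := fun k => by
    rw [conj_pow, M0_cube, mul_one, mul_inv_cancel]
  have hfB := (free_conj hK hm hg (h3 kB)).2
  have hfC := (free_conj hK hm hg (h3 kC)).1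
  have key := covered_mul (G := Tw.G E) (x := xx hK g)
    (show QQ hK ≤ Tw.G E from inf_le_right) ((QN_le_V hK).trans ?_) hy hb hfB hfC (hx kB) (hx kC)
  · convert key using 1
    rw [← hkB, ← hkC]
    have e : NN m c * (zz m g * zz m g * HH m l) * PP m d =
        zz m g * phi hK B' * (zz m g * phi hK C') := by
      have e1 : phi hK M = NN m c * HH m l * PP m d := by
        rw [hM, map_mul, map_mul, phi_lower, phi_dia, phi_upper]
      have hcN : Commute (zz m g) (NN m c) := by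
        rw [← phi_lower hK]; exact zz_comm_phi hK g _
      calc NN m c * (zz m g * zz m g * HH m l) * PP m d
          = (NN m c * (zz m g * zz m g)) * HH m l * PP m d := by group
        _ = zz m g * zz m g * (NN m c * HH m l * PP m d) := by
            rw [← (hcN.mul_left hcN).eq]; group
        _ = zz m g * zz m g * (phi hK B' * phi hK C') := by rw [← e1, hMe, map_mul]
        _ = zz m g * (zz m g * phi hK B') * phi hK C' := by group
        _ = zz m g * (phi hK B' * zz m g) * phi hK C' := by rw [(zz_comm_phi hK g B').eq]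
        _ = _ := by group
    calc y * NN m c * (zz m g * zz m g * HH m l) * PP m d * b
        = y * (NN m c * (zz m g * zz m g * HH m l) * PP m d) * b := by group
      _ = _ := by rw [e]
  · intro a ha
    rw [mem_VV] at ha
    have h1 := mul_mem (mul_mem (inv_mem (nn_mem hK w8)) ((UU_le hK) ha)) (nn_mem hK w8)
    simpa [mul_assoc] using h1

/-- Moving a conjugate into the form. -/
theorem covered_of_att (hm : 1 ≤ m) {g : Kˣ} (hg : orderOf g = 2 ^ (2 * m + 1) - 1) (l : Kˣ)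
    {L : List (Fin 2)} {x u t w a b : GL chevF4.Idx K} {u₀ ω β γ χ χn : K}
    (hx : x = u * t * nn hK L) (ht : t ∈ (tw hK).T) (hu : Cmp hK u u₀)
    (hw : Cmp hK w ω) (hb : Cmp hK b β)
    {qa : GL chevF4.Idx K} (hqa : qa ∈ QN hK) (ha : a = qa * NN m γ)
    (hwn : w * nn hK L = a * (t⁻¹ * (zz m g * zz m g * HH m l)) * b)
    (hχ : ∀ d : K, t * PP m d * t⁻¹ = PP m (χ * d))
    (hχn : ∀ c : K, t * NN m c * t⁻¹ = NN m (χn * c))
    (htr : (l : K) + ((l : K) * (χn * γ) * (β + u₀ + χ * ω) + (l : K)⁻¹) ≠ 0) :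
    Covered (Tw.G E) (xx hK g) x := by
  have hwi := Cmp.conj hK ht hχ (hw.inv hK)
  have hd : Cmp hK (b * (u * (t * w⁻¹ * t⁻¹))) (β + (u₀ + χ * ω)) :=
    hb.mul hK (hu.mul hK hwi)
  obtain ⟨q, hq, eq⟩ := hd
  set v := t * w * t⁻¹ * u⁻¹ with hv
  have hvG : v ∈ Tw.G E := mul_mem
    (mul_mem (mul_mem (T_le' hK ht) (UU_le hK (hw.mem hK))) (inv_mem (T_le' hK ht)))
    (inv_mem (UU_le hK (hu.mem hK)))
  refine Covered.of_conj hvG ?_
  set τ := zz m g * zz m g * HH m l with hτ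
  have e : v * x * v⁻¹ = (t * qa * t⁻¹) * NN m (χn * γ) * τ *
      PP m (β + (u₀ + χ * ω)) *
      ((PP m (β + (u₀ + χ * ω)))⁻¹ * q * PP m (β + (u₀ + χ * ω))) := by
    calc v * x * v⁻¹ = t * (w * nn hK L) * (u * (t * w⁻¹ * t⁻¹)) := by rw [hv, hx]; group
      _ = t * (qa * NN m γ * (t⁻¹ * τ) * b) * (u * (t * w⁻¹ * t⁻¹)) := by rw [hwn, ha]
      _ = (t * qa * t⁻¹) * (t * NN m γ * t⁻¹) * τ * (b * (u * (t * w⁻¹ * t⁻¹))) := by group
      _ = _ := by rw [eq, hχn]; group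
  rw [e]
  refine covered_form hK hm hg l (LL_conj_neg hK (T_LL hK ht) hqa) ?_ ?_
  · have := LL_conj hK (inv_mem (PP_LL hK (β + (u₀ + χ * ω)))) hq
    rwa [inv_inv] at this
  · rwa [add_assoc] at htr

theorem lower_add (a b : K) :
    (D4Cover.lower a * D4Cover.lower b : SL(2, K)) = D4Cover.lower (a + b) := by
  apply Subtype.ext
  rw [Matrix.SpecialLinearGroup.coe_mul, D4Cover.lower_val, D4Cover.lower_val, D4Cover.lower_val]
  ext i j
  fin_cases i <;> fin_cases j <;> simp [Matrix.mul_apply, Fin.sum_univ_two]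

/-- The coordinate that can be chosen to avoid one value. -/
theorem avoid_value {β γ : K → K} {u₀ χ k : K} (hχ : χ ≠ 0) (hk : k ≠ 0)
    (h8 : 8 ≤ Fintype.card K) :
    ∃ σ ν : K, σ ≠ 0 ∧ ν ≠ 0 ∧
      (σ + σ ^ 2 * γ σ / ν) * (ν * β σ + σ + u₀ + χ / σ) ≠ k := by
  classical
  let p : K → K := fun s => s ^ 2 + u₀ * s + χ
  have roots : ∀ v : K, ∃ A : Finset K, A.card ≤ 2 ∧ ∀ s, p s = v → s ∈ A := by
    intro v
    by_cases h : ∃ r, p r = v
    · obtain ⟨r, hr⟩ := h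
      refine ⟨{r, -u₀ - r}, Finset.card_le_two, fun s hs => ?_⟩
      have : (s - r) * (s + r + u₀) = 0 := by
        simp only [p] at hr hs
        linear_combination hs - hr
      rcases mul_eq_zero.mp this with e | e
      · exact Finset.mem_insert.mpr (Or.inl (sub_eq_zero.mp e))
      · exact Finset.mem_insert.mpr (Or.inr (Finset.mem_singleton.mpr (by linear_combination e)))
    · exact ⟨∅, by simp, fun s hs => (h ⟨s, hs⟩).elim⟩
  obtain ⟨A, hA, hA'⟩ := roots 0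
  obtain ⟨A₂, hA₂, hA₂'⟩ := roots k
  obtain ⟨σ, -, hσ⟩ := Finset.exists_mem_notMem_of_card_lt_card
    (s := {0} ∪ (A ∪ A₂)) (t := (Finset.univ : Finset K)) (by
      refine lt_of_le_of_lt ((Finset.card_union_le _ _).trans
        (Nat.add_le_add_left (Finset.card_union_le _ _) _)) ?_
      rw [Finset.card_singleton, Finset.card_univ]
      omega)
  simp only [Finset.mem_union, Finset.mem_singleton, not_or] at hσ
  obtain ⟨hσ0, hσA, hσA₂⟩ := hσ
  have hp0 : p σ ≠ 0 := fun h => hσA (hA' σ h)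
  have hpk : p σ ≠ k := fun h => hσA₂ (hA₂' σ h)
  refine ⟨σ, ?_⟩
  by_contra hno
  push Not at hno
  set P := σ * β σ with hP
  set Q := p σ + γ σ * σ ^ 2 * β σ - k with hQ
  set R := γ σ * σ * p σ with hR
  have hall : ∀ ν : K, ν ≠ 0 → P * (ν * ν) + Q * ν + R = 0 := by
    intro ν hν
    have h := hno ν hσ0 hν
    field_simp at h
    simp only [hP, hQ, hR, p]
    linear_combination h
  obtain ⟨a, -, ha⟩ := Finset.exists_mem_notMem_of_card_lt_card
    (s := ({0, 1} : Finset K)) (t := (Finset.univ : Finset K))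
    (Finset.card_le_two.trans_lt (by rw [Finset.card_univ]; omega))
  obtain ⟨b, -, hb⟩ := Finset.exists_mem_notMem_of_card_lt_card
    (s := ({0, 1, a} : Finset K)) (t := (Finset.univ : Finset K))
    (Finset.card_le_three.trans_lt (by rw [Finset.card_univ]; omega))
  simp only [Finset.mem_insert, Finset.mem_singleton, not_or] at ha hb
  have e1 := hall 1 one_ne_zero
  have ea := hall a ha.1
  have eb := hall b hb.1
  have d1 : P * (a + 1) + Q = 0 :=
    (mul_eq_zero.mp (show (a - 1) * (P * (a + 1) + Q) = 0 by linear_combination ea - e1)).resolve_left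
      (sub_ne_zero.mpr ha.2)
  have d2 : P * (b + 1) + Q = 0 :=
    (mul_eq_zero.mp (show (b - 1) * (P * (b + 1) + Q) = 0 by linear_combination eb - e1)).resolve_left
      (sub_ne_zero.mpr hb.2.1)
  have hP0 : P = 0 :=
    (mul_eq_zero.mp (show (a - b) * P = 0 by linear_combination d1 - d2)).resolve_left
      (sub_ne_zero.mpr (Ne.symm hb.2.2))
  have hQ0 : Q = 0 := by linear_combination d1 - (a + 1) * hP0
  have hR0 : R = 0 := by linear_combination e1 - hP0 - hQ0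
  have hβ : β σ = 0 := (mul_eq_zero.mp hP0).resolve_left hσ0
  have hγ : γ σ = 0 := by
    rcases mul_eq_zero.mp hR0 with h | h
    · exact (mul_eq_zero.mp h).resolve_right hσ0
    · exact absurd h hp0
  apply hpk
  rw [hQ, hβ, hγ] at hQ0
  linear_combination hQ0

/-- The class of the element squares onto every non-identity element. -/
theorem covered_all (hm : 1 ≤ m) {g : Kˣ} (hg : orderOf g = 2 ^ (2 * m + 1) - 1)
    {x : GL chevF4.Idx K} (hxG : x ∈ Tw.G E) (hx1 : x ≠ 1) : Covered (Tw.G E) (xx hK g) x := by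
  classical
  have := charTwo hK
  have h8 : 8 ≤ Fintype.card K := by
    rw [hK]
    calc 8 = 2 ^ 3 := rfl
      _ ≤ _ := Nat.pow_le_pow_right two_pos (by omega)
  have hl1 : (g : K) ≠ 1 := fun h => by
    have e : g = 1 := Units.ext (by simpa using h)
    rw [e, orderOf_one] at hg
    omega
  have hsum : (g : K) + (g : K)⁻¹ ≠ 0 := fun h => by
    apply hl1
    have h' : (g : K) = (g : K)⁻¹ := by rwa [CharTwo.add_eq_zero] at h
    field_simp at h'
    exact frobenius_inj K 2 (by simpa [frobenius_def] using h')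
  obtain ⟨h, hh, L, ⟨hL, -⟩, hc⟩ := exists_fine hK hxG hx1
  refine Covered.of_conj hh ?_
  obtain ⟨b₁, hb₁, b₂, hb₂, e⟩ := hc
  refine Covered.of_conj (Tw.B1_le E hb₂).2 ?_
  have hb21 := mul_mem hb₂ hb₁
  obtain ⟨u, hu, t, ht, eu⟩ := (Tw.mem_B1 E).mp hb21
  set x' := b₂ * (h * x * h⁻¹) * b₂⁻¹ with hx'
  have hxe : x' = u * t * nn hK L := by
    rw [hx', e, ← eu]; group
  obtain ⟨q₀, hq₀, u₀, eu₀⟩ := U_split1 hK hu
  obtain ⟨χ, hχ0, hχ⟩ := exists_chi hK ht
  obtain ⟨χn, hχn0, hχn⟩ := exists_chi_neg hK ht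
  set τ := t⁻¹ * (zz m g * zz m g * HH m g) with hτ
  have hτT : τ ∈ (tw hK).T :=
    mul_mem (inv_mem ht) (mul_mem (mul_mem (zz_mem hK g) (zz_mem hK g)) (HH_mem hK g))
  rcases hL with hgood | rfl
  · obtain ⟨hred, h0, h1, hcase⟩ := hgood
    obtain ⟨w, hw, a, ha, b, hb, ewn⟩ := att_all hK hred h0 h1 hτT
    obtain ⟨qa, hqa, γ, ea⟩ := V_split1 hK ha
    obtain ⟨qw, hqw, ω, ew'⟩ := U_split1 hK hw
    obtain ⟨qb, hqb, β, eb⟩ := U_split1 hK hb
    have done : ∀ (w' b' : GL chevF4.Idx K) (ω' β' : K), Cmp hK w' ω' → Cmp hK b' β' →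
        w' * nn hK L = a * τ * b' →
        (g : K) + ((g : K) * (χn * γ) * (β' + u₀ + χ * ω') + (g : K)⁻¹) ≠ 0 →
        Covered (Tw.G E) (xx hK g) x' := fun w' b' ω' β' h1 h2 h3 h4 =>
      covered_of_att hK hm hg g hxe ht ⟨q₀, hq₀, eu₀⟩ h1 h2 hqa ea h3 hχ hχn h4
    by_cases htr : (g : K) + ((g : K) * (χn * γ) * (β + u₀ + χ * ω) + (g : K)⁻¹) ≠ 0
    · exact done w b ω β ⟨qw, hqw, ew'⟩ ⟨qb, hqb, eb⟩ ewn htr
    push Not at htr
    have hγ : χn * γ ≠ 0 := fun h => hsum (by rw [h] at htr; linear_combination htr)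
    rcases hcase with ⟨hp, hp'⟩ | ⟨hp, hp'⟩
    · set f := (nn hK L)⁻¹ * PP m 1 * nn hK L with hf
      have hfU : f ∈ UU hK := conj_pos' hK hp (PP_mem hK 1)
      have hfQ : f ∈ QQ hK := by
        refine mem_QQ_of_conj hK hfU ?_
        obtain ⟨t', ht', e'⟩ := nn_rev hK L
        have e2 : nn hK L = t'⁻¹ * (nn hK L.reverse)⁻¹ := by rw [← mul_inv_rev, ← e', inv_inv]
        have h2 := conj_pos hK hp' (T_conj_X hK ht' (PP_mem hK (1 : K)))
        rw [nn_cons hK 1 L.reverse] at h2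
        rw [hf, e', e2]
        simpa [mul_assoc] using h2
      refine done (w * PP m 1) (b * f) (ω + 1) (β + 0) (Cmp.mul hK ⟨qw, hqw, ew'⟩ (Cmp.of_PP hK 1))
        (Cmp.mul hK ⟨qb, hqb, eb⟩ (Cmp.of_QQ hK hfQ)) ?_ ?_
      · calc w * PP m 1 * nn hK L = w * nn hK L * f := by rw [hf]; group
          _ = _ := by rw [ewn]; group
      · intro h2
        refine mul_ne_zero (mul_ne_zero g.ne_zero hγ) hχ0 ?_
        linear_combination h2 - htr
    · set f := nn hK L * PP m 1 * (nn hK L)⁻¹ with hf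
      have hfQ : f ∈ QQ hK := by
        refine mem_QQ_of_conj hK (conj_pos hK hp (PP_mem hK 1)) ?_
        have h2 := conj_pos hK hp' (PP_mem hK (1 : K))
        rw [nn_cons hK 1 L] at h2
        rw [hf]
        simpa [mul_assoc] using h2
      refine done (w * f) (b * PP m 1) (ω + 0) (β + 1) (Cmp.mul hK ⟨qw, hqw, ew'⟩ (Cmp.of_QQ hK hfQ))
        (Cmp.mul hK ⟨qb, hqb, eb⟩ (Cmp.of_PP hK 1)) ?_ ?_
      · calc w * f * nn hK L = w * nn hK L * PP m 1 := by rw [hf]; group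
          _ = _ := by rw [ewn]; group
      · intro h2
        refine mul_ne_zero g.ne_zero hγ ?_
        linear_combination h2 - htr
  · -- the longest word
    set k : K := ((g : K) + (g : K)⁻¹) / ((g : K) * χn) with hk
    have hk0 : k ≠ 0 := div_ne_zero hsum (mul_ne_zero g.ne_zero hχn0)
    -- one factorisation along the tail for every value
    have tail : ∀ s : Kˣ, ∃ q ∈ QQ hK, ∃ qa ∈ QN hK, ∃ qb ∈ QQ hK, ∃ γ β : K,
        q * nn hK [0, 1, 0, 1, 0, 1, 0] =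
          qa * NN m γ * ((HH m s)⁻¹ * τ) * (qb * PP m β) := by
      intro s
      obtain ⟨w, hw, a, ha, b, hb, e'⟩ := att_all hK (L := [0, 1, 0, 1, 0, 1, 0]) (by decide +kernel)
        (by simp) (by simp) (mul_mem (inv_mem (HH_mem hK s)) hτT)
      obtain ⟨q, hq, d, ew'⟩ := U_split1 hK hw
      obtain ⟨qa, hqa, γ, ea⟩ := V_split1 hK ha
      obtain ⟨qb, hqb, β, eb⟩ := U_split1 hK (mul_mem hb (PP_mem_U hK d))
      refine ⟨q, hq, qa, hqa, qb, hqb, γ, β, ?_⟩
      rw [← eb, ← ea, ← mul_assoc, ← e', ew', mul_assoc q, ← n7_PP hK]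
      simp only [mul_assoc, ← PP_add hK, CharTwo.add_self_eq_zero, PP_zero hK, mul_one]
    choose q hq qa hqa qb hqb γ β etail using tail
    let γ' : K → K := fun σ => if hσ : σ = 0 then 0 else γ (Units.mk0 σ hσ)⁻¹
    let β' : K → K := fun σ => if hσ : σ = 0 then 0 else β (Units.mk0 σ hσ)⁻¹
    obtain ⟨σ, ν, hσ, hν, hne⟩ := avoid_value hK (u₀ := u₀) hχ0 hk0 h8 (γ := γ') (β := β')
    set s : Kˣ := (Units.mk0 σ hσ)⁻¹ with hs
    have hγ' : γ' σ = γ s := dif_neg hσ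
    have hβ' : β' σ = β s := dif_neg hσ
    rw [hγ', hβ'] at hne
    have hsv : ((s : K))⁻¹ = σ := by simp [hs]
    obtain ⟨μ₀, hμ₀⟩ := sq_surjective_two (F := K) ν
    have hμ0 : μ₀ ≠ 0 := fun h => hν (by rw [← hμ₀, h, zero_pow two_ne_zero])
    set μ : Kˣ := Units.mk0 μ₀ hμ0 with hμ
    set n7 := nn hK [0, 1, 0, 1, 0, 1, 0] with hn7
    -- conjugates by the diagonal elements
    have hP : ∀ (z : Kˣ) (d : K), HH m z * PP m d * (HH m z)⁻¹ = PP m ((z : K) * z * d) := by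
      intro z d
      rw [← phi_dia hK, ← phi_upper hK, ← phi_upper hK, ← map_inv, ← map_mul, ← map_mul]
      congr 1
      rw [mul_inv_eq_iff_eq_mul]
      apply Subtype.ext
      simp only [Matrix.SpecialLinearGroup.coe_mul, SL2Rel.dia_val, SL2Rel.upper_val]
      ext i j
      fin_cases i <;> fin_cases j <;> simp [Matrix.mul_apply, Fin.sum_univ_two]
      field_simp
    have hN : ∀ (z : Kˣ) (c : K), HH m z * NN m c * (HH m z)⁻¹ = NN m (c / ((z : K) * z)) := by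
      intro z c
      rw [← phi_dia hK, ← phi_lower hK, ← phi_lower hK, ← map_inv, ← map_mul, ← map_mul]
      congr 1
      rw [mul_inv_eq_iff_eq_mul]
      apply Subtype.ext
      simp only [Matrix.SpecialLinearGroup.coe_mul, SL2Rel.dia_val, D4Cover.lower_val]
      ext i j
      fin_cases i <;> fin_cases j <;> simp [Matrix.mul_apply, Fin.sum_univ_two]
      field_simp
    have hHμ : Commute n7 (HH m μ) := by rw [← phi_dia hK]; exact n7_phi hK _
    have hHT := HH_mem hK μ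
    have hsT := HH_mem hK s
    set qh := HH m μ * q s * (HH m μ)⁻¹ with hqh
    set qah := HH m μ * qa s * (HH m μ)⁻¹ with hqah
    set qbh := HH m μ * qb s * (HH m μ)⁻¹ with hqbh
    have eh : qh * n7 = qah * NN m (γ s / ν) * ((HH m s)⁻¹ * τ) * (qbh * PP m (ν * β s)) := by
      have hm2 : (μ : K) * μ = ν := by rw [← pow_two]; exact hμ₀
      have hc : HH m μ * ((HH m s)⁻¹ * τ) * (HH m μ)⁻¹ = (HH m s)⁻¹ * τ := by
        rw [T_comm hK hHT (mul_mem (inv_mem hsT) hτT), mul_inv_cancel_right]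
      rw [← hm2, ← hN, ← hP, ← hc]
      calc qh * n7 = HH m μ * q s * ((HH m μ)⁻¹ * n7) := by rw [hqh, mul_assoc]
        _ = HH m μ * (q s * n7) * (HH m μ)⁻¹ := by rw [← hHμ.inv_right.eq]; group
        _ = _ := by rw [etail s, hqah, hqbh]; group
    set w := NN m σ * (HH m s * qh * (HH m s)⁻¹) * (NN m σ)⁻¹ * PP m (s : K) with hw
    have hwC : Cmp hK w (s : K) := by
      refine ⟨_, LL_conj hK (NN_LL hK σ) (LL_conj hK (T_LL hK hsT) ?_), hw⟩
      exact LL_conj hK (T_LL hK hHT) (hq s)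
    have hqa2 : NN m σ * (HH m s * qah * (HH m s)⁻¹) * (NN m σ)⁻¹ ∈ QN hK :=
      LL_conj_neg hK (NN_LL hK σ) (LL_conj_neg hK (T_LL hK hsT) (LL_conj_neg hK (T_LL hK hHT) (hqa s)))
    have hqb2 : qbh ∈ QQ hK := LL_conj hK (T_LL hK hHT) (hqb s)
    refine covered_of_att hK hm hg g (w := w)
      (a := NN m σ * (HH m s * qah * (HH m s)⁻¹) * (NN m σ)⁻¹ *
        NN m (σ + (γ s / ν) / ((s : K) * s)))
      (b := qbh * PP m (ν * β s + σ)) hxe ht ⟨q₀, hq₀, eu₀⟩ hwC ⟨qbh, hqb2, rfl⟩ hqa2 rfl ?_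
      hχ hχn ?_
    · rw [show w8 = 1 :: [0, 1, 0, 1, 0, 1, 0] from rfl, nn_cons hK 1 [0, 1, 0, 1, 0, 1, 0]]
      calc w * (nn hK [1] * n7)
          = NN m σ * (HH m s * qh * (HH m s)⁻¹) * (NN m σ)⁻¹ *
              (PP m (s : K) * nn hK [1]) * n7 := by rw [hw]; group
        _ = NN m σ * HH m s * qh * (PP m σ * n7) := by rw [pair_flip hK, hsv]; group
        _ = NN m σ * HH m s * (qh * n7) * PP m σ := by rw [← n7_PP hK, ← hn7]; group
        _ = (NN m σ * (HH m s * qah * (HH m s)⁻¹) * (NN m σ)⁻¹) *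
              (NN m σ * (HH m s * NN m (γ s / ν) * (HH m s)⁻¹)) * τ *
              (qbh * (PP m (ν * β s) * PP m σ)) := by rw [eh]; group
        _ = _ := by
          rw [hN, ← PP_add hK, ← phi_lower hK σ, ← phi_lower hK (γ s / ν / ((s : K) * s)),
            ← phi_lower hK (σ + γ s / ν / ((s : K) * s)), ← map_mul (phi hK) (D4Cover.lower σ)
            (D4Cover.lower (γ s / ν / ((s : K) * s))), lower_add hK]
    · intro h2
      apply hne
      have e1 : γ s / ν / ((s : K) * s) = σ ^ 2 * γ s / ν := by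
        rw [← hsv]; field_simp
      have e2 : χ * (s : K) = χ / σ := by rw [← hsv, div_inv_eq_mul]
      rw [e1, e2] at h2
      rw [hk, eq_div_iff (mul_ne_zero g.ne_zero hχn0)]
      have two : (2 : K) = 0 := CharTwo.two_eq_zero
      linear_combination h2 - ((g : K) + (g : K)⁻¹) * two

end CfsgLib.F4Cover
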